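import Mathlib

/-! Fixed spaces of dimension less than one sixth: definitions and rank inequalities. -/

set_option autoImplicit false

namespace CF.Sixth

open Module Subgroup
open scoped MatrixGroups

section Lin

variable {K V : Type*} [Field K] [AddCommGroup V] [Module K V]

/-- nullity -/
noncomputable def nl (f : End K V) : ℕ := finrank K (LinearMap.ker f)

/-- rank -/
noncomputable def rk (f : End K V) : ℕ := finrank K (LinearMap.range f)

variable [FiniteDimensional K V] {f g : End K V}

theorem rk_add_nl (f : End K V) : rk f + nl f = finrank K V := f.finrank_range_add_finrank_ker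

theorem rk_mul_le_left (f g : End K V) : rk (f * g) ≤ rk f :=
  Submodule.finrank_mono (LinearMap.range_comp_le_range g f)

theorem nl_le_mul (f g : End K V) : nl g ≤ nl (f * g) :=
  Submodule.finrank_mono (LinearMap.ker_le_ker_comp g f)

theorem rk_mul_le_right (f g : End K V) : rk (f * g) ≤ rk g := by
  have := nl_le_mul f g; have := rk_add_nl g; have := rk_add_nl (f * g); omega

theorem rk_add_le (f g : End K V) : rk (f + g) ≤ rk f + rk g :=
  (Submodule.finrank_mono (LinearMap.range_add_le f g)).trans (Submodule.finrank_add_le_finrank_add_finrank _ _)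

omit [FiniteDimensional K V] in
theorem rk_neg (f : End K V) : rk (-f) = rk f := by rw [rk, LinearMap.range_neg, rk]

theorem rk_sub_le (f g : End K V) : rk (f - g) ≤ rk f + rk g := by
  rw [sub_eq_add_neg, ← rk_neg g]; exact rk_add_le _ _

omit [FiniteDimensional K V] in
theorem rk_zero : rk (0 : End K V) = 0 := by rw [rk, LinearMap.range_zero, finrank_bot]

omit [FiniteDimensional K V] in
theorem rk_one : rk (1 : End K V) = finrank K V := by
  rw [rk, End.one_eq_id, LinearMap.range_id, finrank_top]

omit [FiniteDimensional K V] in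
theorem nl_zero : nl (0 : End K V) = finrank K V := by rw [nl, LinearMap.ker_zero, finrank_top]

theorem rk_sum_le {ι : Type*} (s : Finset ι) (f : ι → End K V) : rk (∑ i ∈ s, f i) ≤ ∑ i ∈ s, rk (f i) := by
  classical
  induction s using Finset.induction_on with
  | empty => simp [rk_zero]
  | insert a s ha ih => rw [Finset.sum_insert ha, Finset.sum_insert ha]; exact (rk_add_le _ _).trans (by omega)

theorem rk_le_nl (h : f * g = 0) : rk g ≤ nl f :=
  Submodule.finrank_mono (LinearMap.range_le_ker_iff.2 h)

/-- the dimension of a subspace is at most that of its image plus that of the kernel on it -/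
theorem finrank_le_map (E : Submodule K V) (f : End K V) :
    finrank K E = finrank K (E.map f) + finrank K (E ⊓ LinearMap.ker f :) := by
  have := (f.domRestrict E).finrank_range_add_finrank_ker
  rw [LinearMap.range_domRestrict, LinearMap.ker_domRestrict] at this
  rw [← this, ← Submodule.finrank_map_subtype_eq E, Submodule.map_comap_subtype]

theorem nl_mul_le (f g : End K V) : nl (f * g) ≤ nl f + nl g := by
  rw [nl, finrank_le_map _ g]
  refine Nat.add_le_add (Submodule.finrank_mono ?_) (Submodule.finrank_mono inf_le_right)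
  rintro _ ⟨v, hv, rfl⟩
  exact hv

theorem nl_pow_le (f : End K V) (r : ℕ) : nl (f ^ r) ≤ r * nl f := by
  induction r with
  | zero => simp [nl, End.one_eq_id]
  | succ r ih => rw [pow_succ, add_mul, one_mul]; exact (nl_mul_le _ _).trans (by omega)

theorem nl_unit_mul (hf : IsUnit f) (g : End K V) : nl (f * g) = nl g := by
  obtain ⟨u, rfl⟩ := hf
  refine le_antisymm ?_ (nl_le_mul _ _)
  simpa [← mul_assoc] using nl_le_mul (u⁻¹).val (u.val * g)

omit [FiniteDimensional K V] in
theorem rk_smul {a : K} (ha : a ≠ 0) (f : End K V) : rk (a • f) = rk f := by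
  rw [rk, LinearMap.range_smul _ _ ha, rk]

end Lin

variable {K V H H' : Type*} [Field K] [AddCommGroup V] [Module K V] [Group H] [Group H']

/-- dimension of the fixed space -/
noncomputable def fd (ρ : Representation K H V) (h : H) : ℕ := nl (ρ h - 1)

/-- all fixed spaces are small -/
def Sm (ρ : Representation K H V) : Prop := ∀ h, h ≠ 1 → 6 * fd ρ h < finrank K V

theorem Sm.comp {ρ : Representation K H V} (h : Sm ρ) {φ : H' →* H} (hφ : Function.Injective φ) :
    Sm (ρ.comp φ) := fun x hx => h (φ x) ((map_ne_one_iff φ hφ).2 hx)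

/-- the group theoretic consequences -/
structure Gp (H : Type*) [Group H] : Prop where
  two : ∀ z a : H, z ≠ 1 → z * z = 1 → z * a * z⁻¹ = a⁻¹ → a * a = 1
  el : ∀ r : ℕ, r = 2 ∨ r = 3 ∨ r = 5 → ∀ x y : H, x ^ r = 1 → y ^ r = 1 → Commute x y → x ≠ 1 →
    y ∈ zpowers x
  three : ∀ c a : H, c ≠ 1 → c ^ 3 = 1 → Commute a (c * a * c⁻¹) → Commute c a

theorem Gp.of_injective (h : Gp H) {φ : H' →* H} (hφ : Function.Injective φ) : Gp H' where
  two z a h1 h2 h3 := hφ (by
    simpa using h.two (φ z) (φ a) ((map_ne_one_iff φ hφ).2 h1) (by rw [← map_mul, h2, map_one])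
      (by simpa using congrArg φ h3))
  el r hr x y h1 h2 h3 h4 := by
    obtain ⟨k, hk⟩ := h.el r hr (φ x) (φ y) (by rw [← map_pow, h1, map_one])
      (by rw [← map_pow, h2, map_one]) (h3.map φ) ((map_ne_one_iff φ hφ).2 h4)
    exact ⟨k, hφ (by simpa using hk)⟩
  three c a h1 h2 h3 := hφ (by
    simpa using (h.three (φ c) (φ a) ((map_ne_one_iff φ hφ).2 h1) (by rw [← map_pow, h2, map_one])
      (by simpa using h3.map φ)).eq)

/-- the element of order three -/
def c0 (F : Type*) [Field F] : SL(2, F) := ⟨!![0, -1; 1, -1], by simp [Matrix.det_fin_two]⟩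

/-- transvections -/
def uu {F : Type*} [Field F] (a : F) : SL(2, F) := ⟨!![1, a; 0, 1], by simp [Matrix.det_fin_two]⟩

theorem c0_pow (F : Type*) [Field F] : c0 F ^ 3 = 1 := by
  refine Subtype.ext ?_
  rw [Matrix.SpecialLinearGroup.coe_pow]
  ext i j; fin_cases i <;> fin_cases j <;> simp [c0, pow_succ, Matrix.mul_apply, Fin.sum_univ_two]

theorem c0_ne (F : Type*) [Field F] : c0 F ≠ 1 := fun h => by
  simpa [c0] using congrArg (fun g : SL(2, F) => g 1 0) h

theorem uu_add {F : Type*} [Field F] (a b : F) : uu (a + b) = uu a * uu b := by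
  refine Subtype.ext ?_
  rw [Matrix.SpecialLinearGroup.coe_mul]
  ext i j; fin_cases i <;> fin_cases j <;> simp [uu, Matrix.mul_apply, Fin.sum_univ_two, add_comm]

theorem uu_zero {F : Type*} [Field F] : uu (0 : F) = 1 := by
  ext i j; fin_cases i <;> fin_cases j <;> simp [uu]

theorem uu_ne {F : Type*} [Field F] {a : F} (ha : a ≠ 0) : uu a ≠ 1 := fun h =>
  ha (by simpa [uu] using congrArg (fun g : SL(2, F) => g 0 1) h)

theorem uu_pow {F : Type*} [Field F] (a : F) (n : ℕ) : uu a ^ n = uu (n * a) := by
  induction n with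
  | zero => simp [uu_zero]
  | succ n ih => rw [pow_succ, ih, ← uu_add]; push_cast; ring_nf

end CF.Sixth
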