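import Cfsg.Agent.Sixth.A
import Cfsg.Agent.Block.Brauer

/-! Ordinary characters as invariants of idempotents of a group algebra. -/

set_option autoImplicit false
set_option linter.style.haveILetI false

namespace CF.Sixth

open Cfsg MonoidAlgebra CF.Block
open CF.BlockB (ev nrm v resC)

variable {k G : Type*} [Field k] [Group G] [Finite G]

/-- values of the ordinary characters on idempotents -/
structure Tau (τ : IrrCharacter G → k[G] → ℂ) : Prop where
  inv : ∀ χ, IdemInv (⊤ : Subalgebra k k[G]) (τ χ)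
  nat : ∀ χ x, x * x = x → ∃ n : ℕ, τ χ x = n
  one : ∀ χ, τ χ 1 = (χ : G → ℂ) 1
  ind : ∀ {n : ℕ} (j : Fin n → k[G]), (∀ i, NPrim (⊤ : Subalgebra k k[G]) (j i)) →
    (∀ i l, IEq (j i) (j l) → i = l) → ∀ a : Fin n → ℂ, (∀ χ, ∑ i, a i * τ χ (j i) = 0) → a = 0
  three : ∀ c : G, c ^ 3 = 1 → ∃ e : k[G], e * e = e ∧ single c 1 * e = e ∧
    ∀ χ, 3 * τ χ e = (χ : G → ℂ) 1 + (χ : G → ℂ) c + (χ : G → ℂ) (c ^ 2)

/-- the idempotent of a cyclic group of order three -/
noncomputable def e3 (c : G) : ℂ[G] := (3 : ℂ)⁻¹ • (single 1 1 + single c 1 + single (c ^ 2) 1)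

omit [Finite G] in
theorem e3_left {c : G} (hc : c ^ 3 = 1) : single c 1 * e3 c = e3 c := by
  have h1 : c * c ^ 2 = 1 := by rw [← pow_succ', hc]
  simp only [e3, mul_smul_comm, mul_add, single_mul_single, mul_one, h1]
  rw [← pow_two]
  congr 1; abel

omit [Finite G] in
theorem e3_idem {c : G} (hc : c ^ 3 = 1) : e3 c * e3 c = e3 c := by
  have h2 : single (c ^ 2) 1 * e3 c = e3 c := by
    rw [pow_two, ← mul_one (1 : ℂ), ← single_mul_single, mul_assoc, e3_left hc, e3_left hc]
  conv_lhs => rw [e3, smul_mul_assoc, ← e3.eq_def, add_mul, add_mul, e3_left hc, h2, ← one_def, one_mul]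
  match_scalars; norm_num

omit [Finite G] in
theorem ev_e3 (χ : G → ℂ) (c : G) : 3 * ev χ (e3 c) = χ 1 + χ c + χ (c ^ 2) := by
  simp only [e3, map_smul, map_add, BlockB.ev_single, one_mul, smul_eq_mul]
  ring

theorem tau_zero : Tau (k := ℂ) fun χ : IrrCharacter G => ev (χ : G → ℂ) where
  inv χ := ⟨fun e _ f _ _ _ _ _ => map_add _ e f, fun x _ y _ _ _ =>
    BlockB.ev_mul_comm (Char.irr_isClassFunction χ.2) x y⟩
  nat χ _ hx := exists_nat_ev (Char.irr_isCharacter χ.2) hx
  one χ := BlockB.ev_one _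
  ind j h1 h2 a ha := by
    classical
    haveI := Fintype.ofFinite G
    funext i
    obtain ⟨t, -, t2, t3, t4⟩ := (h1 i).exists_trace
    have hθ : IsClassFunction G fun g => t (single g 1) := fun g h => by
      have := t2 (single h 1 * single g 1) (single h⁻¹ 1)
      simpa only [single_mul_single, mul_one, inv_mul_cancel_left] using this
    have e : ∀ x, ev (fun g => t (single g 1)) x = t x := fun x => by
      induction x using MonoidAlgebra.induction_linear with
      | zero => simp
      | add a b ha hb => simp only [map_add, ha, hb]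
      | single g c => rw [BlockB.ev_single, ← smul_eq_mul, ← map_smul, smul_single, smul_eq_mul, mul_one]
    have h3 : ∑ l, a l * t (j l) = 0 := by
      rw [Finset.sum_congr rfl fun l _ => by rw [← e (j l)]]
      rw [Char.classFun_eq_sum hθ]
      simp only [BlockB.ev_sum_fun, BlockB.ev_smul_fun, Finset.mul_sum]
      rw [Finset.sum_comm]
      refine Finset.sum_eq_zero fun χ _ => ?_
      simp only [mul_left_comm (a _), ← Finset.mul_sum, ha χ, mul_zero]
    rw [Finset.sum_eq_single i (fun l _ hl => by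
      rw [show t (j l) = 0 from by_contra fun c => hl (h2 _ _ (t4 _ (h1 l) c)), mul_zero]) (by simp),
      t3, mul_one] at h3
    exact h3
  three c hc := ⟨e3 c, e3_idem hc, e3_left hc, fun χ => ev_e3 _ c⟩

theorem tau_pos {l : ℕ} {M : Ideal AlgInt} (hM : IsPModular l M) (h3 : l ≠ 3) :
    Tau (k := BlockB.k M) fun χ : IrrCharacter G => tau M (χ : G → ℂ) 1 where
  inv χ := idemInv_tau_one (Char.irr_isClassFunction χ.2)
  nat χ _ hx := exists_nat_tau (Char.irr_isCharacter χ.2) hx
  one χ := tau_one_one (Char.irr_isClassFunction χ.2)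
  ind j h1 h2 a ha := by
    classical
    funext i
    refine Fintype.linearIndependent_iff.1 (linearIndependent_pch h1 h2) a ?_ i
    simp only [pch, Finset.smul_sum, smul_smul]
    rw [Finset.sum_comm]
    simp only [← Finset.sum_smul, ha, zero_smul, Finset.sum_const_zero]
  three c hc := by
    have h1 : nrm M (e3 c) ≤ 1 := by
      have : v M ((3 : ℕ) : ℂ) = 1 := (BlockB.v_natCast_eq_one_iff hM 3).2 fun h =>
        h3 ((Nat.prime_dvd_prime_iff_eq hM.1 Nat.prime_three).1 h)
      rw [e3, BlockB.nrm_smul, map_inv₀, show (3 : ℂ) = (3 : ℕ) by norm_num, this, inv_one, one_mul]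
      refine BlockB.nrm_add_le_of_le (BlockB.nrm_add_le_of_le ?_ ?_) ?_ <;> simp [BlockB.nrm_single]
    have h2 : nrm M (single c (1 : ℂ)) ≤ 1 := by simp [BlockB.nrm_single]
    refine ⟨red M (e3 c), by rw [← red_mul h1 h1, e3_idem hc], ?_, fun χ => ?_⟩
    · have := red_mul h2 h1
      rw [e3_left hc, red_single, BlockB.resC_one] at this
      exact this.symm
    · rw [tau_one_red (Char.irr_isClassFunction χ.2) (e3_idem hc) h1, ev_e3]

/-- multiplicities of the primitive idempotents -/
theorem exists_mult {R : Type*} [Ring R] [Algebra k R] [Module.Finite k R] {n : ℕ} {j : Fin n → R}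
    (h1 : ∀ i, j i * j i = j i) (h3 : ∀ e, NPrim (⊤ : Subalgebra k R) e → ∃ i, IEq e (j i)) {x : R}
    (hx : x * x = x) : ∃ μ : Fin n → ℕ, ∀ N : R → ℂ, IdemInv (⊤ : Subalgebra k R) N →
      N x = ∑ i, μ i * N (j i) := by
  refine idem_induction (A := (⊤ : Subalgebra k R)) (P := fun x => ∃ μ : Fin n → ℕ, ∀ N : R → ℂ,
    IdemInv (⊤ : Subalgebra k R) N → N x = ∑ i, μ i * N (j i)) ⟨0, fun N h => by simp [h.zero]⟩
    (fun e he => ?_) (fun e he f hf hee hff hef hfe ⟨μ, h1⟩ ⟨ν, h2⟩ => ⟨μ + ν, fun N h => ?_⟩)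
    Algebra.mem_top hx
  · obtain ⟨i, hi⟩ := h3 e he
    refine ⟨Pi.single i 1, fun N h => ?_⟩
    rw [h.of_iEq hi he.idem (h1 i), Finset.sum_eq_single i (fun l _ hl => by simp [hl]) (by simp)]
    simp
  · rw [h.add e he f hf hee hff hef hfe, h1 N h, h2 N h, ← Finset.sum_add_distrib]
    exact Finset.sum_congr rfl fun i _ => by simp [add_mul]

theorem idemInv_sum {R ι : Type*} [Ring R] [Algebra k R] {N : R → ℂ}
    (h : IdemInv (⊤ : Subalgebra k R) N) {e : ι → R} (h1 : ∀ i, e i * e i = e i)
    (h2 : ∀ i j, i ≠ j → e i * e j = 0) (s : Finset ι) : N (∑ i ∈ s, e i) = ∑ i ∈ s, N (e i) := by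
  classical
  induction s using Finset.induction_on with
  | empty => simpa using h.zero
  | insert a s ha ih =>
    rw [Finset.sum_insert ha, Finset.sum_insert ha, ← ih]
    refine h.add _ Algebra.mem_top _ Algebra.mem_top (h1 a) ?_ ?_ ?_
    · rw [Finset.sum_mul]
      refine Finset.sum_congr rfl fun i hi => ?_
      rw [Finset.mul_sum, Finset.sum_eq_single_of_mem i hi fun j _ hj => h2 _ _ hj.symm, h1]
    · rw [Finset.mul_sum]; exact Finset.sum_eq_zero fun i hi => h2 _ _ fun c => ha (c ▸ hi)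
    · rw [Finset.sum_mul]; exact Finset.sum_eq_zero fun i hi => h2 _ _ fun c => ha (c ▸ hi)

section Rank

variable {K V : Type*} [Field K] [AddCommGroup V] [Module K V] [FiniteDimensional K V]

theorem rk_add_idem {f g : Module.End K V} (hf : f * f = f) (hg : g * g = g) (h1 : f * g = 0)
    (h2 : g * f = 0) : rk (f + g) = rk f + rk g := by
  have e : LinearMap.range (f + g) = LinearMap.range f ⊔ LinearMap.range g := by
    refine le_antisymm (LinearMap.range_add_le f g) (sup_le ?_ ?_)
    · conv_lhs => rw [show f = (f + g) * f by rw [add_mul, hf, h2, add_zero]]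
      exact LinearMap.range_comp_le_range _ _
    · conv_lhs => rw [show g = (f + g) * g by rw [add_mul, hg, h1, zero_add]]
      exact LinearMap.range_comp_le_range _ _
  have d : LinearMap.range f ⊓ LinearMap.range g = ⊥ := by
    rw [eq_bot_iff]
    rintro _ ⟨⟨x, rfl⟩, ⟨y, hy⟩⟩
    have := LinearMap.congr_fun hf x
    rw [Module.End.mul_apply, ← hy, ← Module.End.mul_apply, h1] at this
    rw [← hy, ← this]; rfl
  have := Submodule.finrank_sup_add_finrank_inf_eq (LinearMap.range f) (LinearMap.range g)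
  rwa [d, finrank_bot, add_zero, ← e] at this

theorem idemInv_rk {R : Type*} [Ring R] [Algebra k R] (Φ : R →+* Module.End K V) :
    IdemInv (⊤ : Subalgebra k R) fun x => (rk (Φ x) : ℂ) := by
  have key : ∀ x y : R, x * y * x = x → rk (Φ (x * y)) ≤ rk (Φ (y * x)) := fun x y h => by
    conv_lhs => rw [← h, mul_assoc x y x, map_mul, map_mul]
    exact (rk_mul_le_left _ _).trans (rk_mul_le_right _ _)
  refine ⟨fun e _ f _ h1 h2 h3 h4 => ?_, fun x _ y _ h1 h2 => ?_⟩
  · rw [map_add, rk_add_idem (by rw [← map_mul, h1]) (by rw [← map_mul, h2])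
      (by rw [← map_mul, h3, map_zero]) (by rw [← map_mul, h4, map_zero]), Nat.cast_add]
  · rw [le_antisymm (key x y h1) (key y x h2)]

end Rank

end CF.Sixth
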