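import Cfsg.Agent.Sixth.C1
import Cfsg.Agent.Classical.GL2Char

/-! Cross characteristic modules of `GL₂(p)`: `dim V ≤ 5 dim C(c) + dim C(u)`. -/

set_option autoImplicit false
set_option linter.style.haveILetI false

namespace CF.Sixth

open Cfsg MonoidAlgebra CF.Block CF.Classical
open Matrix (SpecialLinearGroup)
open scoped MatrixGroups

variable {p : ℕ} [hp : Fact p.Prime]

theorem no_root (h3 : p % 3 = 2) (x : ZMod p) : x ^ 2 + x + 1 ≠ 0 := fun h => by
  have h1 : x ^ 3 = 1 := by linear_combination (x - 1) * h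
  have h0 : x ≠ 0 := fun c => by simp [c] at h
  have h2 : x ≠ 1 := fun c => by
    have : ((3 : ℕ) : ZMod p) = 0 := by rw [← h, c]; norm_num
    have := (Nat.prime_dvd_prime_iff_eq hp.out Nat.prime_three).1 ((ZMod.natCast_eq_zero_iff 3 p).1 this)
    omega
  haveI : Fact (Nat.Prime 3) := ⟨Nat.prime_three⟩
  have h4 := orderOf_dvd_of_pow_eq_one (ZMod.pow_card_sub_one_eq_one h0)
  rw [orderOf_eq_prime h1 h2] at h4
  have := hp.out.two_le
  omega

/-- the element of order three in `GL₂(p)` -/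
abbrev cg (p : ℕ) [Fact p.Prime] : GL (Fin 2) (ZMod p) := SpecialLinearGroup.toGL (c0 (ZMod p))

/-- transvections in `GL₂(p)` -/
abbrev ug (a : ZMod p) : GL (Fin 2) (ZMod p) := SpecialLinearGroup.toGL (uu a)

theorem num (h3 : p % 3 = 2) (h11 : 11 ≤ p) {χ : GL (Fin 2) (ZMod p) → ℂ} (hχ : IsIrrCharacter _ χ)
    {n f a m : ℕ} (hn : χ 1 = n) (hf : 3 * (f : ℂ) = χ 1 + χ (cg p) + χ (cg p ^ 2))
    (ha : n = m + (p - 1) * a) : a ≤ 1 ∧ (a = 1 → n + 4 * m ≤ 5 * f) := by
  classical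
  have c2 : ((cg p ^ 2 : GL (Fin 2) (ZMod p)) : Matrix (Fin 2) (Fin 2) (ZMod p)) = !![-1, 1; -1, 0] := by
    rw [Units.val_pow_eq_pow_val, pow_two]
    ext i j; fin_cases i <;> fin_cases j <;> simp [c0, Matrix.mul_apply, Fin.sum_univ_two]
  have h₀ : NoEig (cg p) := fun x h => no_root h3 x (by
    rw [dt2_toGL] at h; simpa [tr2, c0] using h)
  have h₁ : NoEig (cg p ^ 2) := fun x h => no_root h3 x (by
    rw [← map_pow, dt2_toGL, map_pow] at h; simpa [tr2, c2] using h)
  have l1 : ∀ (α : MulChar (ZMod p) ℂ) (s : SL(2, ZMod p)), lin α (SpecialLinearGroup.toGL s) = 1 :=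
    fun α s => by simp [lin_eq]
  have key : n ≤ p + 1 ∧ (p - 1 ≤ n → 15 * n + 12 ≤ 15 * f + 12 * p) := by
    rcases h₀.irr_GL2_cases hχ with ⟨α, rfl⟩ | ⟨α, rfl⟩ | ⟨α, β, -, rfl⟩ | ⟨θ, -, rfl⟩
    · rw [lin_one] at hn
      have : n = 1 := by exact_mod_cast hn.symm
      omega
    · rw [h₀.stb_eq, h₁.stb_eq, ← map_pow, l1, l1, hn] at hf
      rw [stb_one, Nat.card_zmod] at hn
      have h1 : p = n := by exact_mod_cast hn
      have h2 : 3 * f + 2 = n := by exact_mod_cast (by rw [hf]; ring : 3 * (f : ℂ) + 2 = n)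
      omega
    · rw [h₀.prin_eq, h₁.prin_eq, hn] at hf
      rw [prin_one, Nat.card_zmod] at hn
      have h1 : p + 1 = n := by exact_mod_cast hn
      have h2 : 3 * f = n := by exact_mod_cast (by rw [hf]; ring : 3 * (f : ℂ) = n)
      omega
    · have b : ∀ t : nsT (cg p), NoEig t.1 → -2 ≤ (cusp θ t.1).re := fun t ht => by
        rw [h₀.cusp_mem θ ht.not_isScal, Complex.neg_re, Complex.add_re]
        have := (Complex.re_le_norm _).trans_eq (Char.linear_norm θ t)
        have := (Complex.re_le_norm _).trans_eq (Char.linear_norm θ (h₀.adjT t))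
        linarith
      have m1 : cg p ∈ nsT (cg p) := Subgroup.mem_centralizer_singleton_iff.2 rfl
      have b1 := b ⟨_, m1⟩ h₀
      have b2 := b ⟨_, pow_mem m1 2⟩ h₁
      have h2 := congrArg Complex.re hf
      rw [hn] at h2
      rw [h₀.cusp_one, Nat.card_zmod] at hn
      have h1 : p = n + 1 := by exact_mod_cast (by rw [← hn]; ring : (p : ℂ) = n + 1)
      simp only [Complex.add_re, Complex.natCast_re, Complex.mul_re, Complex.re_ofNat,
        Complex.im_ofNat, Complex.natCast_im, mul_zero, sub_zero] at h2 b1 b2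
      have h4 : n ≤ 3 * f + 4 := by exact_mod_cast (by linarith : (n : ℝ) ≤ 3 * f + 4)
      omega
  have h1 : a ≤ 1 := by
    by_contra c
    have := Nat.mul_le_mul_left (p - 1) (show 2 ≤ a by omega)
    omega
  exact ⟨h1, fun h => by subst h; omega⟩

variable {k : Type*} [Field k]

/-- the idempotents of the unipotent subgroup -/
noncomputable def eu (ψ : AddChar (ZMod p) k) (s : ZMod p) : k[GL (Fin 2) (ZMod p)] :=
  (p : k)⁻¹ • ∑ a, single (ug a) (ψ (a * s))

theorem eu_left (ψ : AddChar (ZMod p) k) (s b : ZMod p) :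
    single (ug b) 1 * eu ψ s = ψ (-(b * s)) • eu ψ s := by
  rw [eu, mul_smul_comm, smul_comm (ψ _), Finset.mul_sum, Finset.smul_sum (r := ψ _)]
  congr 1
  refine Fintype.sum_equiv (Equiv.addLeft b) _ _ fun a => ?_
  rw [single_mul_single, smul_single, ug, ug, ← map_mul, ← uu_add, one_mul, smul_eq_mul, ← AddChar.map_add_eq_mul]
  simp [add_mul]

theorem eu_mul {ψ : AddChar (ZMod p) k} (hψ : ψ.IsPrimitive) (hk : (p : k) ≠ 0) (t s : ZMod p) :
    eu ψ t * eu ψ s = if t = s then eu ψ s else 0 := by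
  conv_lhs => rw [eu, smul_mul_assoc, Finset.sum_mul]
  have : ∀ a, single (ug a) (ψ (a * t)) * eu ψ s = ψ (a * (t - s)) • eu ψ s := fun a => by
    rw [← mul_one (ψ (a * t)), ← smul_eq_mul (ψ _), ← smul_single, smul_mul_assoc, eu_left, smul_smul,
      ← AddChar.map_add_eq_mul, mul_sub, sub_eq_add_neg]
  simp only [this, ← Finset.sum_smul, AddChar.sum_mulShift _ hψ, smul_smul, sub_eq_zero, ZMod.card]
  split_ifs <;> simp [hk]

theorem eu_sum {ψ : AddChar (ZMod p) k} (hψ : ψ.IsPrimitive) (hk : (p : k) ≠ 0) :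
    ∑ s, eu ψ s = 1 := by
  simp only [eu, ← Finset.smul_sum]
  rw [Finset.sum_comm, Finset.sum_eq_single 0 (fun a _ ha => ?_) (by simp)]
  · simp [ug, uu_zero, one_def, ← Nat.cast_smul_eq_nsmul k, hk]
  · have := AddChar.sum_mulShift a hψ
    rw [if_neg ha, Nat.cast_zero] at this
    simp only [mul_comm a]
    exact (map_sum (singleAddHom (ug a)) (fun s => ψ (s * a)) _).symm.trans (by rw [this, map_zero])

theorem eu_iEq (ψ : AddChar (ZMod p) k) {s : ZMod p} (hs : s ≠ 0) : IEq (eu ψ s) (eu ψ 1) := by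
  let d := gl2 s 0 0 1 (by simpa using hs)
  refine ⟨eu ψ s * single d⁻¹ 1, single d 1, by
    rw [mul_assoc, single_mul_single, inv_mul_cancel, mul_one, ← one_def, mul_one], ?_⟩
  rw [eu, eu, smul_mul_assoc, mul_smul_comm, Finset.sum_mul, Finset.mul_sum]
  congr 1
  refine Fintype.sum_equiv (Equiv.mulRight₀ s hs) _ _ fun a => ?_
  rw [single_mul_single, single_mul_single, one_mul, mul_one, Equiv.mulRight₀_apply, mul_one]
  congr 1
  rw [← mul_assoc, mul_inv_eq_iff_eq_mul, gl2_ext_iff]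
  simp [gl2_mul_apply, d, uu, mul_comm]

theorem crs [IsAlgClosed k] (h3 : p % 3 = 2) (h11 : 11 ≤ p) (hk : (p : k) ≠ 0)
    {τ : IrrCharacter (GL (Fin 2) (ZMod p)) → k[GL (Fin 2) (ZMod p)] → ℂ} (T : Tau τ)
    {K V : Type*} [Field K] [AddCommGroup V] [Module K V] [FiniteDimensional K V] (ι : k →+* K)
    (ρ : Representation K (GL (Fin 2) (ZMod p)) V) :
    Module.finrank K V ≤ 5 * fd ρ (cg p) + fd ρ (ug 1) := by
  classical
  haveI : NeZero (p : k) := ⟨hk⟩
  obtain ⟨ζ, hζ⟩ := HasEnoughRootsOfUnity.exists_primitiveRoot k p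
  have hψ := AddChar.zmodChar_primitive_of_primitive_root p hζ
  set ψ := AddChar.zmodChar p ((IsPrimitiveRoot.iff_def ζ p).mp hζ).left
  have ei : ∀ s, eu ψ s * eu ψ s = eu ψ s := fun s => by rw [eu_mul hψ hk, if_pos rfl]
  obtain ⟨e, e1, e2, e3⟩ := T.three (cg p) (by rw [← map_pow, c0_pow, map_one])
  have e4 : (1 - e) * (1 - e) = 1 - e := by rw [mul_sub, sub_mul, sub_mul, e1]; simp
  obtain ⟨n, j, j1, j2, j3⟩ := exists_primReps (k := k) (R := k[GL (Fin 2) (ZMod p)]) fun _ => True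
  have ex := fun {x} hx => exists_mult (fun i => (j1 i).1.idem) (fun e he => j3 e he trivial) (x := x) hx
  obtain ⟨m, hm⟩ := ex (ei 0)
  obtain ⟨a, ha⟩ := ex (ei 1)
  obtain ⟨f, hf⟩ := ex e1
  obtain ⟨g, hg⟩ := ex e4
  have s1 : ∀ N : _ → ℂ, IdemInv (⊤ : Subalgebra k k[GL (Fin 2) (ZMod p)]) N →
      N 1 = ∑ i, (m i + (p - 1) * a i : ℕ) * N (j i) := fun N h => by
    rw [← eu_sum hψ hk, idemInv_sum h ei fun s t hst => by rw [eu_mul hψ hk, if_neg hst],
      ← Finset.add_sum_erase _ _ (Finset.mem_univ 0), Finset.sum_congr rfl fun s hs =>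
        h.of_iEq (eu_iEq ψ (Finset.ne_of_mem_erase hs)) (ei s) (ei 1), Finset.sum_const,
      Finset.card_erase_of_mem (Finset.mem_univ _), Finset.card_univ, ZMod.card, hm N h, ha N h,
      nsmul_eq_mul, Finset.mul_sum, ← Finset.sum_add_distrib]
    exact Finset.sum_congr rfl fun i _ => by push_cast; ring
  have s2 : ∀ i, m i + (p - 1) * a i = f i + g i := fun i => by
    have := congrFun (T.ind j (fun i => (j1 i).1) j2
      (fun i => ((m i + (p - 1) * a i : ℕ) : ℂ) - (f i + g i : ℕ)) fun χ => by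
        simp only [sub_mul, Finset.sum_sub_distrib]
        rw [← s1 _ (T.inv χ), (T.inv χ).sub Algebra.mem_top Algebra.mem_top (mul_one 1) e1 (one_mul _)
          (mul_one _), hf _ (T.inv χ), hg _ (T.inv χ), ← Finset.sum_add_distrib, sub_eq_zero]
        exact Finset.sum_congr rfl fun i _ => by push_cast; ring) i
    exact_mod_cast sub_eq_zero.1 this
  have s3 : ∀ i, (p - 1) * a i ≤ 5 * f i := fun i => by
    by_cases h0 : a i = 0
    · simp [h0]
    obtain ⟨χ, hχ⟩ : ∃ χ, τ χ (j i) ≠ 0 := by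
      by_contra! c
      simpa using congrFun (T.ind j (fun i => (j1 i).1) j2 (Pi.single i 1) fun χ => by
        rw [Finset.sum_eq_single i (fun l _ hl => by simp [hl]) (by simp), c, mul_zero]) i
    choose d hd using fun l => T.nat χ _ (j1 l).1.idem
    have d0 : d i ≠ 0 := fun c => hχ (by rw [hd, c, Nat.cast_zero])
    obtain ⟨b1, b2⟩ := num h3 h11 χ.2 (n := ∑ l, (m l + (p - 1) * a l) * d l) (f := ∑ l, f l * d l)
      (a := ∑ l, a l * d l) (m := ∑ l, m l * d l)
      (by rw [← T.one, s1 _ (T.inv χ)]; simp only [hd]; push_cast; rfl)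
      (by rw [← e3, hf _ (T.inv χ)]; simp only [hd]; push_cast; rfl)
      (by simp only [add_mul, Finset.sum_add_distrib, Finset.mul_sum, mul_assoc])
    simp only [← Finset.add_sum_erase _ _ (Finset.mem_univ i)] at b1 b2
    have p1 : 1 ≤ a i * d i := Nat.one_le_iff_ne_zero.2 (mul_ne_zero h0 d0)
    have p2 : a i * d i = 1 := by omega
    have p3 : ∑ l ∈ Finset.univ.erase i, a l * d l = 0 := by omega
    have p4 : ∑ l ∈ Finset.univ.erase i, f l * d l ≤ ∑ l ∈ Finset.univ.erase i, m l * d l :=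
      Finset.sum_le_sum fun l hl => by
        rcases mul_eq_zero.1 (Finset.sum_eq_zero_iff.1 p3 l hl) with c | c
        · have := s2 l
          rw [c] at this
          exact Nat.mul_le_mul_right _ (by omega)
        · simp [c]
    have p5 : ∑ l ∈ Finset.univ.erase i, m l * d l ≤
        ∑ l ∈ Finset.univ.erase i, (m l + (p - 1) * a l) * d l :=
      Finset.sum_le_sum fun l _ => Nat.mul_le_mul_right _ (by omega)
    have := b2 (by omega)
    rw [Nat.eq_one_of_mul_eq_one_left p2] at this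
    omega
  let Φ : k[GL (Fin 2) (ZMod p)] →+* Module.End K V :=
    liftNCRingHom ((algebraMap K _).comp ι) ρ fun x y => Algebra.commutes _ _
  have Φ1 : ∀ x, Φ (single x 1) = ρ x := fun x => by simp [Φ, liftNCRingHom]
  have r := idemInv_rk (k := k) Φ
  have r1 := s1 _ r
  have r2 := hf _ r
  have r3 := hm _ r
  simp only [map_one, rk_one] at r1 r2 r3
  norm_cast at r1 r2 r3
  have q1 : rk (Φ e) ≤ fd ρ (cg p) := rk_le_nl (by rw [sub_mul, one_mul, ← Φ1, ← map_mul, e2, sub_self])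
  have q2 : rk (Φ (eu ψ 0)) ≤ fd ρ (ug 1) := rk_le_nl (by
    rw [sub_mul, one_mul, ← Φ1, ← map_mul, eu_left]; simp)
  refine le_trans ?_ (Nat.add_le_add (Nat.mul_le_mul_left 5 q1) q2)
  rw [r1, r2, r3, Finset.mul_sum, ← Finset.sum_add_distrib]
  refine Finset.sum_le_sum fun i _ => ?_
  rw [← mul_assoc, ← add_mul]
  exact Nat.mul_le_mul_right _ (by have := s3 i; omega)

end CF.Sixth
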