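import Cfsg.Agent.Sixth.C2

/-! Cross characteristic modules of `SL₂(p)`: base change and induction to `GL₂(p)`. -/

set_option autoImplicit false
set_option linter.style.haveILetI false

namespace CF.Sixth

open Cfsg CF.Classical Module TensorProduct
open Matrix (SpecialLinearGroup GeneralLinearGroup)
open scoped MatrixGroups

variable {K V H : Type*} [Field K] [AddCommGroup V] [Module K V] [FiniteDimensional K V] [Group H]

/-- base change -/
noncomputable def bc (L : Type*) [Field L] [Algebra K L] (ρ : Representation K H V) :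
    Representation L H (L ⊗[K] V) where
  toFun h := (ρ h).baseChange L
  map_one' := by rw [map_one, LinearMap.baseChange_one]
  map_mul' a b := by rw [map_mul, LinearMap.baseChange_mul]

theorem nl_baseChange (L : Type*) [Field L] [Algebra K L] (f : End K V) :
    nl (f.baseChange L) ≤ nl f := by
  have h := Module.Flat.lTensor_exact L (f.exact_subtype_ker_map)
  have e : LinearMap.ker (f.baseChange L) = LinearMap.range ((LinearMap.ker f).subtype.baseChange L) :=
    LinearMap.exact_iff.1 h
  rw [nl, e, nl]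
  exact (LinearMap.finrank_range_le _).trans_eq finrank_baseChange

theorem Sm.bc (L : Type*) [Field L] [Algebra K L] {ρ : Representation K H V} (h : Sm ρ) :
    Sm (bc L ρ) := fun x hx => by
  have := nl_baseChange L (ρ x - 1)
  rw [LinearMap.baseChange_sub, LinearMap.baseChange_one] at this
  rw [finrank_baseChange]
  exact lt_of_le_of_lt (Nat.mul_le_mul_left 6 this) (h x hx)

theorem exists_common.{u, w} (P : Type) [Field P] (K : Type u) (k : Type w) [Field K] [Field k]
    [Algebra P K] [Algebra P k] :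
    ∃ (L : Type (max u w)) (_ : Field L) (_ : Algebra K L), Nonempty (k →+* L) := by
  obtain ⟨m, hm⟩ := Ideal.exists_maximal (K ⊗[P] k)
  exact ⟨(K ⊗[P] k) ⧸ m, Ideal.Quotient.field m, inferInstance,
    ⟨(Ideal.Quotient.mk m).comp Algebra.TensorProduct.includeRight.toRingHom⟩⟩

theorem nl_pi_le {ι : Type*} [Fintype ι] (F : End K (ι → V)) (f : ι → End K V)
    (h : ∀ v d, F v d = f d (v d)) : nl F ≤ ∑ d, nl (f d) := by
  simp only [nl]
  rw [← finrank_pi_fintype]
  refine LinearMap.finrank_le_finrank_of_injective (f := LinearMap.pi fun d =>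
    ((LinearMap.proj d).comp (LinearMap.ker F).subtype).codRestrict _ fun v => ?_) fun v w e => ?_
  · exact (h v d).symm.trans (congrFun v.2 d)
  · exact Subtype.ext (funext fun d => congrArg Subtype.val (congrFun e d))

variable {F : Type*} [Field F]

/-- diagonal matrices with given determinant -/
def dg (d : Fˣ) : GL (Fin 2) F := gl2 d 0 0 1 (by simp)

theorem det_dg (d : Fˣ) : GeneralLinearGroup.det (dg d) = d :=
  Units.ext (by rw [← dt2_eq_det]; simp [dt2, dg])

/-- the cocycle of the induced module -/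
def coc (g : GL (Fin 2) F) (d : Fˣ) : SL(2, F) :=
  ⟨((dg d)⁻¹ * g * dg (d * (GeneralLinearGroup.det g)⁻¹)).1, by
    rw [← GeneralLinearGroup.val_det_apply]
    simp only [map_mul, map_inv, det_dg, mul_comm d]
    rw [mul_assoc, mul_inv_cancel_left, inv_mul_cancel, Units.val_one]⟩

theorem toGL_coc (g : GL (Fin 2) F) (d : Fˣ) : SpecialLinearGroup.toGL (coc g d) =
    (dg d)⁻¹ * g * dg (d * (GeneralLinearGroup.det g)⁻¹) := Units.ext rfl

/-- the induced module -/
noncomputable def indu (ρ : Representation K SL(2, F) V) : Representation K (GL (Fin 2) F) (Fˣ → V) where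
  toFun g := LinearMap.pi fun d => ρ (coc g d) ∘ₗ LinearMap.proj (d * (GeneralLinearGroup.det g)⁻¹)
  map_one' := by
    ext v d
    have : coc 1 d = 1 := SpecialLinearGroup.toGL_injective (by simp [toGL_coc])
    simp [this]
  map_mul' a b := by
    ext v d
    have : coc (a * b) d = coc a d * coc b (d * (GeneralLinearGroup.det a)⁻¹) :=
      SpecialLinearGroup.toGL_injective (by
        simp only [toGL_coc, map_mul, mul_assoc, mul_inv_cancel_left, mul_inv])
    simp [this, mul_assoc, mul_comm (GeneralLinearGroup.det b)⁻¹]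

theorem Sm.indu [Fintype Fˣ] {ρ : Representation K SL(2, F) V} (h : Sm ρ) {x : SL(2, F)} (hx : x ≠ 1) :
    6 * fd (indu ρ) (SpecialLinearGroup.toGL x) + Fintype.card Fˣ ≤ finrank K (Fˣ → V) := by
  have h1 := nl_pi_le (CF.Sixth.indu ρ (SpecialLinearGroup.toGL x) - 1)
    (fun d => ρ (coc (SpecialLinearGroup.toGL x) d) - 1) fun v d => by simp [CF.Sixth.indu]
  rw [finrank_pi_fintype]
  refine (Nat.add_le_add_right (Nat.mul_le_mul_left 6 h1) _).trans ?_
  rw [Finset.mul_sum, Fintype.card, Finset.card_eq_sum_ones, ← Finset.sum_add_distrib]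
  refine Finset.sum_le_sum fun d _ => h _ fun c => hx ?_
  have := toGL_coc (SpecialLinearGroup.toGL x) d
  rw [c, map_one] at this
  exact SpecialLinearGroup.toGL_injective (by simpa [mul_assoc, eq_inv_mul_iff_mul_eq] using this)

variable {p : ℕ} [hp : Fact p.Prime]

theorem not_sm_cross (h3 : p % 3 = 2) (h11 : 11 ≤ p) (hK : (3 : K) ≠ 0) (hp' : (p : K) ≠ 0)
    (ρ : Representation K SL(2, ZMod p) V) : ¬ Sm ρ := fun h => by
  classical
  have key : ∀ {k : Type} [Field k] [IsAlgClosed k] (P : Type) [Field P] [Algebra P K] [Algebra P k],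
      (p : k) ≠ 0 → ∀ τ, Tau (k := k) (G := GL (Fin 2) (ZMod p)) τ → False := by
    intro k _ _ P _ _ _ hk τ T
    obtain ⟨L, _, _, ⟨ι⟩⟩ := exists_common P K k
    have h1 := crs h3 h11 hk T ι (indu (bc L ρ))
    have h2 := (h.bc L).indu (c0_ne (ZMod p))
    have h4 := (h.bc L).indu (uu_ne (one_ne_zero' (ZMod p)))
    have := Fintype.card_pos (α := (ZMod p)ˣ)
    simp only [cg, ug] at h1
    omega
  obtain ⟨l, hl⟩ := CharP.exists K
  rcases CharP.char_is_prime_or_zero K l with pl | rfl
  · haveI := Fact.mk pl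
    obtain ⟨M, hM⟩ := BlockB.exists_isPModular pl
    haveI := BlockB.charP_k hM
    letI := ZMod.algebra K l
    letI := ZMod.algebra (BlockB.k M) l
    refine key (ZMod l) (fun c => hp' ?_) _ (tau_pos hM fun c => hK ?_)
    · exact (CharP.cast_eq_zero_iff K l p).2 ((CharP.cast_eq_zero_iff _ l p).1 c)
    · exact_mod_cast (CharP.cast_eq_zero_iff K l 3).2 (c ▸ dvd_rfl)
  · haveI := CharP.charP_to_charZero K
    exact key (k := ℂ) ℚ (Nat.cast_ne_zero.2 hp.out.ne_zero) _ tau_zero

end CF.Sixth
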