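import Cfsg.Agent.Sixth.A

/-! Defining characteristic: superadditive rank functionals and the Borel subgroup. -/

set_option autoImplicit false
set_option linter.style.haveILetI false

namespace CF.Sixth

open Module MonoidAlgebra
open scoped MatrixGroups

section General

variable {K G : Type*} [Field K] [Group G]

theorem rk_super {W V Q : Type*} [AddCommGroup W] [Module K W] [AddCommGroup V] [Module K V]
    [AddCommGroup Q] [Module K Q] [FiniteDimensional K V] {i : W →ₗ[K] V} {π : V →ₗ[K] Q}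
    (hi : Function.Injective i) (hπ : Function.Surjective π) (h0 : ∀ w, π (i w) = 0)
    {a : End K W} {b : End K V} {c : End K Q} (h1 : ∀ w, i (a w) = b (i w)) (h2 : ∀ v, π (b v) = c (π v)) :
    rk a + rk c ≤ rk b := by
  have e := (π.domRestrict (LinearMap.range b)).finrank_range_add_finrank_ker
  rw [LinearMap.range_domRestrict, LinearMap.ker_domRestrict, ← Submodule.finrank_map_subtype_eq,
    Submodule.map_comap_subtype] at e
  have e1 : (LinearMap.range b).map π = LinearMap.range c := by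
    ext x
    constructor
    · rintro ⟨_, ⟨v, rfl⟩, rfl⟩; exact ⟨_, (h2 v).symm⟩
    · rintro ⟨y, rfl⟩; obtain ⟨v, rfl⟩ := hπ y; exact ⟨_, ⟨v, rfl⟩, h2 v⟩
  have e2 : (LinearMap.range a).map i ≤ LinearMap.range b ⊓ LinearMap.ker π := by
    rintro _ ⟨_, ⟨w, rfl⟩, rfl⟩; exact ⟨⟨_, (h1 w).symm⟩, h0 _⟩
  have e3 := Submodule.finrank_mono e2
  rw [← (Submodule.equivMapOfInjective i hi _).finrank_eq] at e3
  rw [e1] at e
  simp only [rk]; omega

theorem inter {W V : Type*} [AddCommGroup W] [Module K W] [AddCommGroup V] [Module K V]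
    {σ : Representation K G W} {ρ : Representation K G V} {i : W →ₗ[K] V}
    (h : ∀ g w, i (σ g w) = ρ g (i w)) (a : K[G]) (w : W) :
    i (σ.asAlgebraHom a w) = ρ.asAlgebraHom a (i w) := by
  induction a using MonoidAlgebra.induction_linear with
  | zero => simp
  | add a b ha hb => simp only [map_add, LinearMap.add_apply, ha, hb]
  | single g c => simp [h]

/-- irreducible representations -/
def Simp {V : Type*} [AddCommGroup V] [Module K V] (ρ : Representation K G V) : Prop :=
  ∀ W : Submodule K V, (∀ g, W ≤ W.comap (ρ g)) → W = ⊥ ∨ W = ⊤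

theorem reduce.{v} {ι : Type*} [Fintype ι] (α : ℕ) (β : ι → ℕ) (a : ι → K[G])
    (h : ∀ (V : Type v) [AddCommGroup V] [Module K V] [FiniteDimensional K V] [Nontrivial V]
      (ρ : Representation K G V), Simp ρ → α * finrank K V ≤ ∑ i, β i * rk (ρ.asAlgebraHom (a i)))
    (V : Type v) [AddCommGroup V] [Module K V] [FiniteDimensional K V] (ρ : Representation K G V) :
    α * finrank K V ≤ ∑ i, β i * rk (ρ.asAlgebraHom (a i)) := by
  induction hn : finrank K V using Nat.strong_induction_on generalizing V with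
  | _ n ih =>
  subst hn
  rcases subsingleton_or_nontrivial V with _ | _
  · simp [finrank_zero_of_subsingleton]
  by_cases hs : Simp ρ
  · exact h V ρ hs
  simp only [Simp, not_forall, not_or] at hs
  obtain ⟨W, h1, h2, h3⟩ := hs
  have e := W.finrank_quotient_add_finrank
  have l1 := Submodule.finrank_lt h3
  have l2 : finrank K W ≠ 0 := fun c => h2 (Submodule.finrank_eq_zero.1 c)
  have i1 := ih _ l1 W (ρ.subrepresentation W h1) rfl
  have i2 := ih _ (by omega) (V ⧸ W) (ρ.quotient W h1) rfl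
  rw [← e, mul_add, add_comm]
  refine (Nat.add_le_add i1 i2).trans ?_
  rw [← Finset.sum_add_distrib]
  refine Finset.sum_le_sum fun i _ => ?_
  rw [← mul_add]
  exact Nat.mul_le_mul_left _ (rk_super W.subtype_injective W.mkQ_surjective (fun w => by simp)
    (inter (fun _ _ => rfl) _) (inter (fun _ _ => rfl) _))

end General

variable {K V : Type*} [Field K] [AddCommGroup V] [Module K V] {p : ℕ} [hp : Fact p.Prime]
  [Algebra (ZMod p) K]

local notation "φ" => algebraMap (ZMod p) K

/-- the split torus -/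
def tt {F : Type*} [Field F] (t : Fˣ) : SL(2, F) := ⟨!![t, 0; 0, (t⁻¹ : Fˣ)], by simp [Matrix.det_fin_two]⟩

theorem tt_mul {F : Type*} [Field F] (s t : Fˣ) : tt (s * t) = tt s * tt t := by
  refine Subtype.ext ?_
  rw [Matrix.SpecialLinearGroup.coe_mul]
  ext i j; fin_cases i <;> fin_cases j <;> simp [tt, Matrix.mul_apply, Fin.sum_univ_two, mul_comm]

theorem tt_one {F : Type*} [Field F] : tt (1 : Fˣ) = 1 := by
  ext i j; fin_cases i <;> fin_cases j <;> simp [tt]

theorem tt_uu {F : Type*} [Field F] (t : Fˣ) (a : F) : tt t * uu a = uu (t ^ 2 * a) * tt t := by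
  refine Subtype.ext ?_
  rw [Matrix.SpecialLinearGroup.coe_mul, Matrix.SpecialLinearGroup.coe_mul]
  ext i j; fin_cases i <;> fin_cases j <;> simp [tt, uu, Matrix.mul_apply, Fin.sum_univ_two]
  field_simp

theorem phi_ne (t : (ZMod p)ˣ) : φ t ≠ 0 := (map_ne_zero _).2 t.ne_zero

theorem phi_per (t : (ZMod p)ˣ) {i j : ℤ} (h : ((p : ℤ) - 1) ∣ i - j) : φ t ^ i = φ t ^ j := by
  obtain ⟨m, hm⟩ := h
  have : φ t ^ ((p : ℤ) - 1) = 1 := by
    rw [show (p : ℤ) - 1 = (p - 1 : ℕ) by have := hp.out.pos; omega, zpow_natCast, ← map_pow,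
      ZMod.pow_card_sub_one_eq_one t.ne_zero, map_one]
  rw [show i = j + (p - 1) * m by linear_combination hm, zpow_add₀ (phi_ne t), zpow_mul, this, one_zpow,
    mul_one]

theorem sum_phi (i : ℤ) : ∑ t : (ZMod p)ˣ, φ t ^ i = if ((p : ℤ) - 1) ∣ i then -1 else 0 := by
  have h0 : (0 : ℤ) < p - 1 := by have := hp.out.two_le; omega
  obtain ⟨n, hn⟩ := Int.eq_ofNat_of_zero_le (Int.emod_nonneg i h0.ne')
  have h1 : ((p : ℤ) - 1) ∣ i - n := hn ▸ Int.dvd_self_sub_of_emod_eq rfl
  simp only [phi_per _ h1, zpow_natCast, ← map_pow, ← map_sum]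
  rw [FiniteField.sum_pow_units, ZMod.card, apply_ite φ, map_neg, map_one, map_zero]
  refine if_congr ?_ rfl rfl
  rw [← Int.natCast_dvd_natCast, Nat.cast_sub hp.out.pos, Nat.cast_one]
  exact (dvd_iff_dvd_of_dvd_sub h1).symm

variable (K) in
/-- the weight idempotents -/
noncomputable def ee (p : ℕ) [Fact p.Prime] [Algebra (ZMod p) K] (j : ℤ) : K[SL(2, ZMod p)] :=
  -∑ t : (ZMod p)ˣ, single (tt t) (algebraMap (ZMod p) K t ^ (-j))

variable (K) in
/-- the raising operator -/
noncomputable def xx (p : ℕ) [Fact p.Prime] [Algebra (ZMod p) K] : K[SL(2, ZMod p)] :=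
  ∑ a : ZMod p, single (uu a) (algebraMap (ZMod p) K a⁻¹)

variable (ρ : Representation K SL(2, ZMod p) V)

/-- weight spaces -/
def wt (j : ℤ) : Submodule K V where
  carrier := {v | ∀ t, ρ (tt t) v = φ t ^ j • v}
  add_mem' ha hb t := by rw [map_add, ha t, hb t, smul_add]
  zero_mem' t := by simp
  smul_mem' c v hv t := by rw [map_smul, hv t, smul_comm]

theorem wt_per {i j : ℤ} (h : ((p : ℤ) - 1) ∣ i - j) : wt ρ i = wt ρ j := by
  ext v
  exact forall_congr' fun t => by rw [phi_per t h]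

theorem ee_apply (j : ℤ) (v : V) :
    ρ.asAlgebraHom (ee K p j) v = -∑ t : (ZMod p)ˣ, φ t ^ (-j) • ρ (tt t) v := by
  simp [ee]

theorem xx_apply (v : V) : ρ.asAlgebraHom (xx K p) v = ∑ a : ZMod p, φ a⁻¹ • ρ (uu a) v := by
  simp [xx]

theorem ee_tt (j : ℤ) (s : (ZMod p)ˣ) (v : V) :
    ρ.asAlgebraHom (ee K p j) (ρ (tt s) v) = φ s ^ j • ρ.asAlgebraHom (ee K p j) v := by
  rw [ee_apply, ee_apply, smul_neg, Finset.smul_sum, neg_inj]
  refine Fintype.sum_equiv (Equiv.mulRight s) _ _ fun t => ?_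
  rw [Equiv.coe_mulRight, tt_mul, map_mul ρ, End.mul_apply, smul_smul, Units.val_mul, map_mul, mul_zpow,
    mul_left_comm, ← zpow_add₀ (phi_ne s), add_neg_cancel, zpow_zero, mul_one]

theorem ee_mem (j : ℤ) (v : V) : ρ.asAlgebraHom (ee K p j) v ∈ wt ρ j := fun s => by
  rw [← ee_tt, ee_apply, ee_apply, map_neg, map_sum]
  simp only [map_smul, ← End.mul_apply, ← map_mul, ← tt_mul, mul_comm s]

variable {ρ}

theorem ee_of_mem {i : ℤ} {v : V} (h : v ∈ wt ρ i) (j : ℤ) :
    ρ.asAlgebraHom (ee K p j) v = if ((p : ℤ) - 1) ∣ i - j then v else 0 := by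
  rw [ee_apply, Finset.sum_congr rfl fun t _ => by
    rw [h t, smul_smul, ← zpow_add₀ (phi_ne t), neg_add_eq_sub], ← Finset.sum_smul, sum_phi]
  split_ifs <;> simp

theorem xx_mem {j : ℤ} {v : V} (h : v ∈ wt ρ j) : ρ.asAlgebraHom (xx K p) v ∈ wt ρ (j + 2) := fun s => by
  rw [xx_apply, map_sum, Finset.smul_sum]
  refine Fintype.sum_equiv (Equiv.mulLeft₀ ((s : ZMod p) ^ 2) (pow_ne_zero _ s.ne_zero)) _ _ fun a => ?_
  rw [map_smul, ← End.mul_apply, ← map_mul, tt_uu, map_mul, End.mul_apply, h s, map_smul, smul_smul,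
    smul_smul, Equiv.mulLeft₀_apply, zpow_add₀ (phi_ne s), mul_inv, map_mul, map_inv₀ φ (_ ^ 2), map_pow]
  congr 1
  have := phi_ne (K := K) s
  field_simp

theorem xx_pow_mem {j : ℤ} {v : V} (h : v ∈ wt ρ j) (r : ℕ) :
    (ρ.asAlgebraHom (xx K p) ^ r) v ∈ wt ρ (j + 2 * r) := by
  induction r with
  | zero => simpa using h
  | succ r ih =>
    rw [pow_succ', End.mul_apply, show j + 2 * (r + 1 : ℕ) = j + 2 * r + 2 by push_cast; ring]
    exact xx_mem ih

variable (ρ)

theorem sum_ee (v : V) : ∑ k ∈ Finset.range (p - 1), ρ.asAlgebraHom (ee K p (-(k + 1))) v = v := by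
  haveI : CharP K p := (Algebra.charP_iff (ZMod p) K p).1 inferInstance
  simp only [ee_apply, Finset.sum_neg_distrib, neg_neg]
  rw [Finset.sum_comm, Finset.sum_eq_single 1 (fun t _ ht => ?_) (by simp)]
  · simp [tt_one, ← Nat.cast_smul_eq_nsmul K, Nat.cast_sub hp.out.pos]
  · rw [← Finset.sum_smul]
    convert zero_smul K _
    have h1 : φ t - 1 ≠ 0 := by
      rw [← map_one φ, ← map_sub, map_ne_zero, sub_ne_zero]; exact fun c => ht (Units.ext c)
    have h2 := geom_sum_mul (φ t) (p - 1)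
    rw [← map_pow, ZMod.pow_card_sub_one_eq_one t.ne_zero, map_one, sub_self] at h2
    simp only [zpow_add_one₀ (phi_ne (K := K) t), zpow_natCast, ← Finset.sum_mul,
      (mul_eq_zero.1 h2).resolve_right h1, zero_mul]

theorem dd_pow : (ρ (uu 1) - 1) ^ p = 0 := by
  haveI : CharP K p := (Algebra.charP_iff (ZMod p) K p).1 inferInstance
  rcases subsingleton_or_nontrivial (End K V) with _ | _
  · exact Subsingleton.elim _ _
  haveI : CharP (End K V) p := charP_of_injective_algebraMap (algebraMap K _).injective p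
  rw [sub_pow_char_of_commute p (Commute.one_right _), ← map_pow, uu_pow]
  simp [uu_zero]

theorem xx_eq (h2 : 2 < p) : ∃ w, IsUnit w ∧ Commute w (ρ (uu 1) - 1) ∧
    ρ.asAlgebraHom (xx K p) = w * (ρ (uu 1) - 1) := by
  haveI : CharP K p := (Algebra.charP_iff (ZMod p) K p).1 inferInstance
  set D := ρ (uu 1) - 1 with hD
  let P : Polynomial K := ∑ a : ZMod p, Polynomial.C (φ a⁻¹) * (Polynomial.X + 1) ^ a.val
  have h0 : P.coeff 0 = 0 := by
    simp only [P, Polynomial.finsetSum_coeff, Polynomial.coeff_C_mul, Polynomial.coeff_X_add_one_pow,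
      Nat.choose_zero_right, Nat.cast_one, mul_one, ← map_sum]
    rw [map_eq_zero]
    refine (Equiv.sum_comp (Equiv.inv (ZMod p)) id).trans ?_
    simpa using FiniteField.sum_pow_lt_card_sub_one (ZMod p) 1 (by rw [ZMod.card]; omega)
  have h1 : P.coeff 1 = -1 := by
    simp only [P, Polynomial.finsetSum_coeff, Polynomial.coeff_C_mul, Polynomial.coeff_X_add_one_pow,
      Nat.choose_one_right, ← map_natCast φ, ZMod.natCast_zmod_val, ← map_mul, ← map_sum]
    rw [← Finset.add_sum_erase _ _ (Finset.mem_univ 0), Finset.sum_congr rfl fun a ha =>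
      inv_mul_cancel₀ (Finset.ne_of_mem_erase ha)]
    simp [Nat.cast_sub hp.out.pos]
  have h3 : ρ.asAlgebraHom (xx K p) = Polynomial.aeval D P := by
    ext v
    simp only [xx_apply, P, map_sum, map_mul, map_pow, map_add, Polynomial.aeval_C, Polynomial.aeval_X,
      map_one, hD, sub_add_cancel, ← map_pow ρ, uu_pow, ZMod.natCast_zmod_val, mul_one,
      LinearMap.sum_apply, End.mul_apply, Module.algebraMap_end_apply]
  have c : ∀ Q : Polynomial K, Commute (Polynomial.aeval D Q) D := fun Q => by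
    simpa using (Commute.all Q Polynomial.X).map (Polynomial.aeval D)
  refine ⟨Polynomial.aeval D P.divX, ?_, c _, ?_⟩
  · rw [← P.divX.divX_mul_X_add, Polynomial.coeff_divX, h1, map_add, map_mul, Polynomial.aeval_X,
      Polynomial.aeval_C, map_neg, map_one, ← sub_eq_add_neg]
    exact ((c _).isNilpotent_mul_left ⟨p, dd_pow ρ⟩).isUnit_sub_one
  · rw [h3]
    conv_lhs => rw [← P.divX_mul_X_add, h0, map_zero, add_zero, map_mul, Polynomial.aeval_X]

end CF.Sixth
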