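import Cfsg.Agent.Sixth.D1

/-! Defining characteristic: counting Jordan blocks by weights. -/

set_option autoImplicit false
set_option linter.style.haveILetI false

namespace CF.Sixth

open Module MonoidAlgebra
open scoped MatrixGroups

variable {K V : Type*} [Field K] [AddCommGroup V] [Module K V] {p : ℕ} [hp : Fact p.Prime]
  [Algebra (ZMod p) K] [FiniteDimensional K V] (ρ : Representation K SL(2, ZMod p) V)

/-- fixed vectors of a given weight -/
noncomputable def NN (j : ℤ) : ℕ :=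
  finrank K (wt ρ j ⊓ LinearMap.ker (ρ.asAlgebraHom (xx K p)) :)

omit [FiniteDimensional K V] in
theorem NN_per {i j : ℤ} (h : ((p : ℤ) - 1) ∣ i - j) : NN ρ i = NN ρ j := by rw [NN, wt_per ρ h, NN]

variable {ρ}

omit [FiniteDimensional K V] in
theorem map_le_wt {E : Submodule K V} {j : ℤ} (h : E ≤ wt ρ j) (r : ℕ) :
    E.map (ρ.asAlgebraHom (xx K p) ^ r) ≤ wt ρ (j + 2 * r) := by
  rintro _ ⟨v, hv, rfl⟩; exact xx_pow_mem (h hv) r

theorem steps {E : Submodule K V} {j : ℤ} (h : E ≤ wt ρ j) (r : ℕ) :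
    finrank K E ≤ ∑ i ∈ Finset.range r, NN ρ (j + 2 * i) +
      finrank K (E.map (ρ.asAlgebraHom (xx K p) ^ r)) := by
  induction r with
  | zero => rw [pow_zero, End.one_eq_id, Submodule.map_id]; simp
  | succ r ih =>
    rw [Finset.sum_range_succ, pow_succ', End.mul_eq_comp, Submodule.map_comp]
    have h1 := finrank_le_map (E.map (ρ.asAlgebraHom (xx K p) ^ r)) (ρ.asAlgebraHom (xx K p))
    have h2 : _ ≤ NN ρ (j + 2 * r) := Submodule.finrank_mono (inf_le_inf_right _ (map_le_wt h r))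
    omega

variable (ρ)

theorem sum_NN {ι : Type*} (s : Finset ι) (f : ι → ℤ)
    (hf : ∀ a ∈ s, ∀ b ∈ s, ((p : ℤ) - 1) ∣ f a - f b → a = b) :
    ∑ i ∈ s, NN ρ (f i) ≤ nl (ρ.asAlgebraHom (xx K p)) := by
  classical
  suffices ∃ U : Submodule K V, U ≤ LinearMap.ker (ρ.asAlgebraHom (xx K p)) ∧
      finrank K U = ∑ i ∈ s, NN ρ (f i) ∧ ∀ j, (∀ i ∈ s, ¬ ((p : ℤ) - 1) ∣ f i - j) →
        U ≤ LinearMap.ker (ρ.asAlgebraHom (ee K p j)) by
    obtain ⟨U, h1, h2, -⟩ := this
    exact h2 ▸ Submodule.finrank_mono h1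
  induction s using Finset.induction_on with
  | empty => exact ⟨⊥, bot_le, by simp, fun _ _ => bot_le⟩
  | insert a s ha ih =>
    obtain ⟨U, h1, h2, h3⟩ := ih fun a ha b hb => hf a (by simp [ha]) b (by simp [hb])
    refine ⟨wt ρ (f a) ⊓ LinearMap.ker (ρ.asAlgebraHom (xx K p)) ⊔ U, sup_le inf_le_right h1, ?_,
      fun j hj => sup_le (fun v hv => ?_) (h3 j fun i hi => hj i (by simp [hi]))⟩
    · rw [Finset.sum_insert ha, ← h2, NN, ← Submodule.finrank_sup_add_finrank_inf_eq, eq_comm,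
        add_eq_left, Submodule.finrank_eq_zero, eq_bot_iff]
      rintro v ⟨⟨h4, -⟩, h5⟩
      have := h3 (f a) (fun i hi c => ha (hf i (by simp [hi]) a (by simp) c ▸ hi)) h5
      rwa [LinearMap.mem_ker, ee_of_mem h4, if_pos (by simp)] at this
    · rw [LinearMap.mem_ker, ee_of_mem hv.1, if_neg (hj a (by simp))]

theorem borel (h11 : 11 ≤ p) :
    2 * rk (ρ.asAlgebraHom (xx K p ^ (p - 4) * ee K p 3)) + 2 * rk (ρ.asAlgebraHom (xx K p * ee K p (-1))) +
      rk (ρ.asAlgebraHom (xx K p * ee K p 2)) ≤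
      2 * rk (ρ.asAlgebraHom (ee K p 3)) + 2 * fd ρ (uu 1) := by
  obtain ⟨w, w1, w2, w3⟩ := xx_eq ρ (by omega)
  set X := ρ.asAlgebraHom (xx K p) with hX
  have x0 : X ^ p = 0 := by rw [w3, w2.mul_pow, dd_pow, mul_zero]
  have x1 : nl X = fd ρ (uu 1) := by rw [w3, nl_unit_mul w1, fd]
  obtain ⟨h, hh⟩ : ∃ h, p = 2 * h + 1 := hp.out.odd_of_ne_two (by omega)
  have r : ∀ j, LinearMap.range (X * ρ.asAlgebraHom (ee K p j)) ≤ wt ρ (j + 2) := fun j => by
    rintro _ ⟨v, rfl⟩; exact xx_mem (ee_mem ρ j v)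
  have z : ∀ j, (LinearMap.range (X * ρ.asAlgebraHom (ee K p j))).map (X ^ (p - 1)) = ⊥ := fun j => by
    rw [← LinearMap.range_comp, ← End.mul_eq_comp, ← mul_assoc, ← pow_succ, Nat.sub_add_cancel hp.out.pos,
      x0, zero_mul, LinearMap.range_zero]
  have a1 := steps (r 2) (p - 1)
  rw [← hX, z, finrank_bot, show p - 1 = h + h by omega, Finset.sum_range_add,
    Finset.sum_congr rfl fun i _ => NN_per ρ (i := 2 + 2 + 2 * (h + i : ℕ)) (j := 2 + 2 + 2 * i)
      ⟨1, by push_cast [hh]; ring⟩] at a1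
  have a2 := steps (r (-1)) 1
  set Z := (LinearMap.range (X * ρ.asAlgebraHom (ee K p (-1)))).map (X ^ 1) with hZ
  have z3 : Z ≤ wt ρ 3 := map_le_wt (r (-1)) 1
  have a3 := finrank_le_map Z (X ^ (p - 4))
  have a4 := finrank_le_map (LinearMap.range (ρ.asAlgebraHom (ee K p 3))) (X ^ (p - 4))
  have a5 : finrank K (Z ⊓ LinearMap.ker (X ^ (p - 4)) :) ≤ _ := Submodule.finrank_mono
    (inf_le_inf_right _ (show Z ≤ LinearMap.range (ρ.asAlgebraHom (ee K p 3)) from fun v hv =>
      ⟨v, by rw [ee_of_mem (z3 hv), if_pos (by simp)]⟩))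
  have a6 := steps ((map_le_wt z3 (p - 4)).trans (wt_per ρ (j := -3) ⟨2, by omega⟩).le) 2
  have z4 : (Z.map (X ^ (p - 4))).map (X ^ 2) = ⊥ := by
    rw [hZ, ← Submodule.map_comp, ← Submodule.map_comp, ← End.mul_eq_comp, ← End.mul_eq_comp,
      ← pow_add, ← pow_add, show 2 + (p - 4) + 1 = p - 1 by omega, z]
  rw [← hX, z4, finrank_bot] at a6
  have a7 := sum_NN ρ (Finset.range (h + 3)) (fun i => if i < h then 4 + 2 * i else 2 * (i - h) - 3)
    fun a ha b hb c => by
      rw [Finset.mem_range] at ha hb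
      obtain ⟨m, hm⟩ := c
      have e : (p : ℤ) - 1 = 2 * h := by omega
      rw [e] at hm
      split_ifs at hm with c1 c2 c2
      · have : m = 0 := by nlinarith
        subst this; omega
      · have : (2 : ℤ) * (h * m) = 2 * h * m := by ring
        omega
      · have : (2 : ℤ) * (h * m) = 2 * h * m := by ring
        omega
      · have : m = 0 := by
          have : (5 : ℤ) ≤ h := by omega
          have : (a : ℤ) - b ≤ 2 ∧ -2 ≤ (a : ℤ) - b := by omega
          nlinarith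
        subst this; omega
  rw [Finset.sum_range_add, Finset.sum_congr rfl fun i hi => by
    rw [if_pos (Finset.mem_range.1 hi)], ← hX, x1] at a7
  rw [← LinearMap.range_comp, ← End.mul_eq_comp] at a4
  simp only [Finset.sum_range_succ, Finset.sum_range_zero, add_lt_iff_neg_left, not_lt_zero, if_false,
    Nat.cast_add, add_sub_cancel_left] at a2 a6 a7
  rw [map_mul, map_mul, map_mul, map_pow, ← hX]
  simp only [rk]
  norm_num at a1 a2 a6 a7
  omega

end CF.Sixth
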