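import Cfsg.Agent.Sixth.D1

/-! Defining characteristic: the simple modules are spaces of binary forms. -/

set_option autoImplicit false
set_option linter.style.haveILetI false

namespace CF.Sixth

open Module MonoidAlgebra
open scoped MatrixGroups

variable {K V : Type*} [Field K] [AddCommGroup V] [Module K V] {p : ℕ} [hp : Fact p.Prime]
  [Algebra (ZMod p) K]

local notation "φ" => algebraMap (ZMod p) K

variable (K p) in
/-- the right regular representation on functions -/
def RR : Representation K SL(2, ZMod p) (SL(2, ZMod p) → K) where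
  toFun h := LinearMap.funLeft K K (· * h)
  map_one' := by ext; simp
  map_mul' a b := by ext; simp [mul_assoc]

omit [Algebra (ZMod p) K] in
theorem RR_apply (h g : SL(2, ZMod p)) (f : SL(2, ZMod p) → K) : RR K p h f g = f (g * h) := rfl

/-- linear forms in the second row -/
def lf (a b : K) : SL(2, ZMod p) → K := fun g => a * φ (g 1 0) + b * φ (g 1 1)

theorem RR_lf (h : SL(2, ZMod p)) (a b : K) (i j : ℕ) (c d : K) :
    RR K p h (lf a b ^ i * lf c d ^ j) =
      lf (a * φ (h 0 0) + b * φ (h 0 1)) (a * φ (h 1 0) + b * φ (h 1 1)) ^ i *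
      lf (c * φ (h 0 0) + d * φ (h 0 1)) (c * φ (h 1 0) + d * φ (h 1 1)) ^ j := by
  funext g
  simp only [RR_apply, Pi.mul_apply, Pi.pow_apply, lf, Matrix.SpecialLinearGroup.coe_mul,
    Matrix.mul_apply, Fin.sum_univ_two, map_add, map_mul]
  congr 2 <;> ring

/-- monomials -/
def mon (k i : ℕ) : SL(2, ZMod p) → K := lf 1 0 ^ i * lf 0 1 ^ (k - i)

theorem mon_apply (k i : ℕ) (g : SL(2, ZMod p)) :
    (mon k i g : K) = φ (g 1 0) ^ i * φ (g 1 1) ^ (k - i) := by simp [mon, lf]

theorem row_mul {F : Type*} [Field F] (g h : SL(2, F)) (j : Fin 2) :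
    (g * h) 1 j = g 1 0 * h 0 j + g 1 1 * h 1 j := by
  rw [Matrix.SpecialLinearGroup.coe_mul, Matrix.mul_apply, Fin.sum_univ_two]

theorem row_uu {F : Type*} [Field F] (g : SL(2, F)) (a : F) :
    (g * uu a) 1 0 = g 1 0 ∧ (g * uu a) 1 1 = g 1 0 * a + g 1 1 := by
  rw [row_mul, row_mul]; simp [uu]

theorem row_tt {F : Type*} [Field F] (g : SL(2, F)) (t : Fˣ) :
    (g * tt t) 1 0 = g 1 0 * t ∧ (g * tt t) 1 1 = g 1 1 * (t : F)⁻¹ := by
  rw [row_mul, row_mul]; simp [tt]

variable (K p) in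
/-- binary forms of degree `k` -/
def PP (k : ℕ) : Submodule K (SL(2, ZMod p) → K) :=
  Submodule.span K (Set.range fun i : Fin (k + 1) => mon k i)

theorem mon_mem {k i : ℕ} (h : i ≤ k) : mon k i ∈ PP K p k :=
  Submodule.subset_span ⟨⟨i, by omega⟩, rfl⟩

theorem finrank_PP (k : ℕ) : finrank K (PP K p k) ≤ k + 1 :=
  (finrank_range_le_card _).trans_eq (Fintype.card_fin _)

theorem lf_mul_mem {k : ℕ} (a b : K) {f : SL(2, ZMod p) → K} (h : f ∈ PP K p k) :
    lf a b * f ∈ PP K p (k + 1) := by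
  induction h using Submodule.span_induction with
  | mem f hf =>
    obtain ⟨i, rfl⟩ := hf
    have := i.2
    have e : lf a b * mon k i = a • mon (k + 1) (i + 1) + b • mon (p := p) (k + 1) i := by
      funext g
      simp only [mon_apply, lf, Nat.add_sub_add_right, Nat.sub_add_comm (show i ≤ k by omega),
        Pi.mul_apply, Pi.add_apply, Pi.smul_apply, smul_eq_mul]
      ring
    exact e ▸ add_mem (Submodule.smul_mem _ _ (mon_mem (by omega)))
      (Submodule.smul_mem _ _ (mon_mem (by omega)))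
  | zero => simp
  | add f g _ _ h1 h2 => rw [mul_add]; exact add_mem h1 h2
  | smul c f _ h => rw [mul_smul_comm]; exact Submodule.smul_mem _ _ h

theorem lf_mem (a b c d : K) (i j : ℕ) : lf a b ^ i * lf c d ^ j ∈ PP K p (i + j) := by
  induction i with
  | zero =>
    induction j with
    | zero => simpa [mon] using mon_mem (K := K) (p := p) (le_refl 0)
    | succ j ih => simpa [pow_succ'] using lf_mul_mem c d (by simpa using ih)
  | succ i ih => rw [pow_succ', mul_assoc, add_right_comm]; exact lf_mul_mem a b ih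

theorem RR_mem {k : ℕ} (h : SL(2, ZMod p)) {f : SL(2, ZMod p) → K} (hf : f ∈ PP K p k) :
    RR K p h f ∈ PP K p k := by
  refine (Submodule.span_le (p := (PP K p k).comap (RR K p h))).2 ?_ hf
  rintro _ ⟨i, rfl⟩
  have := lf_mem (p := p) (1 * φ (h 0 0) + 0 * φ (h 0 1)) (1 * φ (h 1 0) + 0 * φ (h 1 1))
    (0 * φ (h 0 0) + 1 * φ (h 0 1)) (0 * φ (h 1 0) + 1 * φ (h 1 1)) i (k - i)
  rwa [← RR_lf, Nat.add_sub_cancel' (by omega)] at this

theorem mon_wt {k i : ℕ} (h : i ≤ k) : (mon k i : _ → K) ∈ wt (RR K p) (2 * i - k) := fun t => by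
  funext g
  obtain ⟨j, rfl⟩ := Nat.exists_eq_add_of_le h
  have := phi_ne (K := K) t
  rw [RR_apply, Pi.smul_apply, mon_apply, mon_apply, (row_tt g t).1, (row_tt g t).2,
    show 2 * (i : ℤ) - (i + j : ℕ) = i - j by push_cast; ring, zpow_sub₀ this, Nat.add_sub_cancel_left,
    map_mul, map_mul, map_inv₀, mul_pow, mul_pow, smul_eq_mul, zpow_natCast, zpow_natCast, inv_pow]
  field_simp

theorem xx_mon (h2 : 2 < p) {i j : ℕ} (hj : j + 1 < p) :
    (RR K p).asAlgebraHom (xx K p) (mon (i + (j + 1)) i) =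
    (-(j + 1 : K)) • mon (i + (j + 1)) (i + 1) := by
  funext g
  have e : ∀ a : ZMod p, RR K p (uu a) (mon (i + (j + 1)) i) g = ∑ m ∈ Finset.range (j + 2),
      φ a ^ m * (φ (g 1 0) ^ (i + m) * φ (g 1 1) ^ (j + 1 - m) * (j + 1).choose m) := fun a => by
    rw [RR_apply, mon_apply, (row_uu g a).1, (row_uu g a).2, Nat.add_sub_cancel_left, map_add, add_pow,
      Finset.mul_sum, map_mul]
    exact Finset.sum_congr rfl fun m _ => by ring
  have s : ∀ m, m < j + 2 → ∑ a : ZMod p, φ a⁻¹ * φ a ^ m = if m = 1 then -1 else 0 := fun m hm => by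
    rw [← Finset.add_sum_erase _ _ (Finset.mem_univ 0), inv_zero, map_zero, zero_mul, zero_add,
      Finset.sum_subtype (p := fun a => a ≠ 0) _ (by simp), ← Equiv.sum_comp unitsEquivNeZero]
    refine (Finset.sum_congr rfl fun t _ => ?_).trans ((sum_phi (m - 1)).trans (if_congr ?_ rfl rfl))
    · rw [zpow_sub_one₀ (phi_ne t), mul_comm, zpow_natCast, map_inv₀]; rfl
    · refine ⟨fun h => ?_, fun h => by simp [h]⟩
      have := Int.eq_zero_of_abs_lt_dvd h (by rw [abs_lt]; omega)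
      omega
  rw [xx_apply, Finset.sum_apply]
  simp only [Pi.smul_apply, smul_eq_mul, e, Finset.mul_sum, ← mul_assoc (φ _⁻¹)]
  rw [Finset.sum_comm, Finset.sum_congr rfl fun m hm => by
    rw [← Finset.sum_mul, s m (Finset.mem_range.1 hm)], Finset.sum_eq_single 1 (fun m _ h => by simp [h])
    (by simp), mon_apply, Nat.add_sub_add_left]
  simp
  ring

/-- the Weyl element -/
def ww (F : Type*) [Field F] : SL(2, F) := ⟨!![0, -1; 1, 0], by simp [Matrix.det_fin_two]⟩

theorem row_ww {F : Type*} [Field F] (g : SL(2, F)) :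
    (g * ww F) 1 0 = g 1 1 ∧ (g * ww F) 1 1 = -g 1 0 := by
  rw [row_mul, row_mul]; simp [ww]

theorem eq_uu_mul {F : Type*} [Field F] {g h : SL(2, F)} (h0 : g 1 0 = h 1 0) (h1 : g 1 1 = h 1 1) :
    ∃ a, g = uu a * h := by
  have dg := g.det_coe
  have dh := h.det_coe
  rw [Matrix.det_fin_two] at dg dh
  refine ⟨g 0 1 * h 0 0 - g 0 0 * h 0 1, Subtype.ext ?_⟩
  rw [Matrix.SpecialLinearGroup.coe_mul]
  ext i j; fin_cases i <;> fin_cases j <;> simp [uu, Matrix.mul_apply, Fin.sum_univ_two, h0, h1]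
  · rw [h0, h1] at dg; linear_combination (-g 0 0) * dh + h 0 0 * dg
  · rw [h0, h1] at dg; linear_combination (-g 0 1) * dh + h 0 1 * dg

theorem row_ne {F : Type*} [Field F] {g : SL(2, F)} (h : g 1 0 = 0) : g 1 1 ≠ 0 := fun c => by
  have := g.det_coe
  rw [Matrix.det_fin_two, h, c] at this
  simp at this

theorem tt_row {F : Type*} [Field F] (t : Fˣ) (g : SL(2, F)) (j : Fin 2) :
    (tt t⁻¹ * g) 1 j = t * g 1 j := by
  rw [row_mul]; simp [tt]

/-- a submodule of homogeneous functions of the second row contains a highest weight vector -/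
theorem exists_top {M : Submodule K (SL(2, ZMod p) → K)} (hM : ∀ h, ∀ f ∈ M, RR K p h f ∈ M) {k : ℕ}
    (hk : k < p - 1) {s : SL(2, ZMod p) → K} (s0 : s ≠ 0) (s1 : s ∈ M) (s2 : ∀ g a, s (uu a * g) = s g)
    (s3 : ∀ g a, s (g * uu a) = s g) (s4 : ∀ g t, s (tt t⁻¹ * g) = φ t ^ (k + 1) * s g) :
    ∃ k < p, mon k k ∈ M := by
  haveI : CharP K p := (Algebra.charP_iff (ZMod p) K p).1 inferInstance
  have v0 : ∀ g : SL(2, ZMod p), g 1 0 = 0 → s g = s 1 * φ (g 1 1) ^ (k + 1) := fun g h => by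
    have h1 := row_ne h
    obtain ⟨a, ha⟩ := eq_uu_mul (g := g) (h := tt (Units.mk0 _ h1)⁻¹ * 1) (by rw [tt_row]; simp [h])
      (by rw [tt_row]; simp)
    conv_lhs => rw [ha, s2, s4, mul_comm]
    rfl
  have v1 : ∀ g : SL(2, ZMod p), g 1 0 ≠ 0 → s g = s (ww _) * φ (g 1 0) ^ (k + 1) := fun g h => by
    obtain ⟨a, ha⟩ := eq_uu_mul (g := g) (h := tt (Units.mk0 _ h)⁻¹ * (ww _ * uu (g 1 1 / g 1 0)))
      (by rw [tt_row, (row_uu _ _).1]; simp [ww])
      (by rw [tt_row, (row_uu _ _).2]; simp [ww]; field_simp)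
    conv_lhs => rw [ha, s2, s4, s3, mul_comm]
    rfl
  have m1 : ∑ a : ZMod p, RR K p (uu a) (RR K p (ww _) s) ∈ M := sum_mem fun a _ => hM _ _ (hM _ _ s1)
  have e : ∑ a : ZMod p, RR K p (uu a) (RR K p (ww _) s) =
      (s 1 * (-1) ^ (k + 1) - if k + 1 = p - 1 then s (ww _) else 0) • mon (k + 1) (k + 1) := by
    funext g
    simp only [Finset.sum_apply, RR_apply, Pi.smul_apply, mon_apply, Nat.sub_self, pow_zero, mul_one,
      smul_eq_mul]
    by_cases h : g 1 0 = 0
    · have : ∀ a, s (g * uu a * ww _) = s (g * ww _) := fun a => by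
        obtain ⟨b, hb⟩ := eq_uu_mul (g := g * uu a * ww _) (h := g * ww _)
          (by rw [(row_ww _).1, (row_ww _).1, (row_uu _ _).2, h]; simp)
          (by rw [(row_ww _).2, (row_ww _).2, (row_uu _ _).1])
        rw [hb, s2]
      simp [this, h, ← Nat.cast_smul_eq_nsmul K]
    have : ∀ a, s (g * uu a * ww _) = s (ww _) * φ (g 1 0 * a + g 1 1) ^ (k + 1) +
        if g 1 0 * a + g 1 1 = 0 then s 1 * φ (-g 1 0) ^ (k + 1) else 0 := fun a => by
      split_ifs with c
      · rw [v0 _ (by rw [(row_ww _).1, (row_uu _ _).2, c]), (row_ww _).2, (row_uu _ _).1, c]; simp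
      · rw [v1 _ (by rwa [(row_ww _).1, (row_uu _ _).2]), (row_ww _).1, (row_uu _ _).2, add_zero]
    simp only [this]
    refine (Equiv.sum_comp ((Equiv.mulLeft₀ _ h).trans (Equiv.addRight (g 1 1))) fun y =>
      s (ww _) * φ y ^ (k + 1) + if y = 0 then s 1 * φ (-g 1 0) ^ (k + 1) else 0).trans ?_
    simp only [Finset.sum_add_distrib, Finset.sum_ite_eq', Finset.mem_univ, if_true, ← Finset.mul_sum,
      ← map_pow, ← map_sum]
    split_ifs with c
    · rw [c, ZMod.pow_card_sub_one_eq_one h, ZMod.pow_card_sub_one_eq_one (neg_ne_zero.2 h),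
        ← Finset.add_sum_erase _ _ (Finset.mem_univ 0), Finset.sum_congr rfl fun a ha =>
          ZMod.pow_card_sub_one_eq_one (Finset.ne_of_mem_erase ha), zero_pow (by omega),
        ← map_one φ, ← map_neg, ← map_pow, ZMod.pow_card_sub_one_eq_one (neg_ne_zero.2 one_ne_zero)]
      simp [Nat.cast_sub hp.out.pos]
      ring
    · rw [FiniteField.sum_pow_lt_card_sub_one _ _ (by rw [ZMod.card]; omega), neg_pow]
      simp
      ring
  rw [e] at m1
  by_cases c : (s 1 * (-1) ^ (k + 1) - if k + 1 = p - 1 then s (ww _) else 0) = 0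
  swap
  · exact ⟨k + 1, by omega, (M.smul_mem_iff c).1 m1⟩
  split_ifs at c with c1
  · refine ⟨0, hp.out.pos, ?_⟩
    rw [c1, ← map_one φ, ← map_neg, ← map_pow, ZMod.pow_card_sub_one_eq_one (neg_ne_zero.2 one_ne_zero),
      map_one, mul_one, sub_eq_zero] at c
    have : s = s 1 • mon 0 0 := by
      funext g
      by_cases h : g 1 0 = 0
      · have h1 := row_ne h
        rw [v0 g h, c1, ← map_pow, ZMod.pow_card_sub_one_eq_one h1]; simp [mon_apply]
      · rw [v1 g h, c1, ← map_pow, ZMod.pow_card_sub_one_eq_one h, ← c]; simp [mon_apply]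
    exact (M.smul_mem_iff fun c => s0 (by rw [this, c, zero_smul])).1 (this ▸ s1)
  · refine ⟨k + 1, by omega, ?_⟩
    have c2 : s 1 = 0 := by simpa using c
    have : s = s (ww _) • mon (k + 1) (k + 1) := by
      funext g
      by_cases h : g 1 0 = 0
      · rw [v0 g h, c2]; simp [mon_apply, h]
      · rw [v1 g h]; simp [mon_apply]
    exact (M.smul_mem_iff fun c => s0 (by rw [this, c, zero_smul])).1 (this ▸ s1)

theorem PP_le (h2 : 2 < p) {M : Submodule K (SL(2, ZMod p) → K)} (hM : ∀ h, ∀ f ∈ M, RR K p h f ∈ M)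
    {k : ℕ} (hk : k < p) (h : mon k k ∈ M) : PP K p k ≤ M := by
  haveI : CharP K p := (Algebra.charP_iff (ZMod p) K p).1 inferInstance
  have h0 : mon k 0 ∈ M := by
    convert hM (ww _) _ h
    funext g
    rw [RR_apply, mon_apply, mon_apply, (row_ww g).1]; simp
  have : ∀ i ≤ k, mon k i ∈ M := fun i => by
    induction i with
    | zero => exact fun _ => h0
    | succ i ih =>
      intro hi
      obtain ⟨j, rfl⟩ : ∃ j, k = i + (j + 1) := ⟨k - i - 1, by omega⟩
      have h1 : (RR K p).asAlgebraHom (xx K p) (mon (i + (j + 1)) i) ∈ M := by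
        rw [xx_apply]; exact sum_mem fun a _ => M.smul_mem _ (hM _ _ (ih (by omega)))
      rw [xx_mon h2 (by omega)] at h1
      refine (M.smul_mem_iff (neg_ne_zero.2 ?_)).1 h1
      rw [← Nat.cast_succ, Ne, CharP.cast_eq_zero_iff K p]
      exact Nat.not_dvd_of_pos_of_lt (by omega) (by omega)
  exact Submodule.span_le.2 (by rintro _ ⟨i, rfl⟩; exact this i (by omega))

theorem exists_emb [FiniteDimensional K V] [Nontrivial V] (h2 : 2 < p)
    {ρ : Representation K SL(2, ZMod p) V} (h : Simp ρ) :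
    ∃ Θ : V →ₗ[K] SL(2, ZMod p) → K, Function.Injective Θ ∧ (∀ g v, Θ (ρ g v) = RR K p g (Θ v)) ∧
      ∃ k < p, LinearMap.range Θ = PP K p k := by
  have n1 : nl (ρ (uu 1) - 1) ≠ 0 := fun c => by
    have := nl_pow_le (ρ (uu 1) - 1) p
    rw [dd_pow, nl_zero, c] at this
    exact (finrank_pos (R := K) (M := V)).not_ge this
  obtain ⟨l0, l1, l2⟩ := Submodule.exists_le_ker_of_lt_top (LinearMap.range (ρ (uu 1) - 1))
    (lt_top_iff_ne_top.2 fun c => n1 (by
      have := rk_add_nl (ρ (uu 1) - 1)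
      rw [rk, c, finrank_top] at this; omega))
  have l3 : ∀ a v, l0 (ρ (uu a) v) = l0 v := fun a v => by
    rw [← ZMod.natCast_zmod_val a, ← mul_one (a.val : ZMod p), ← uu_pow, map_pow]
    induction a.val with
    | zero => rfl
    | succ n ih =>
      rw [pow_succ', End.mul_apply, ← ih, ← sub_eq_zero, ← map_sub]
      exact l2 ⟨_, rfl⟩
  obtain ⟨k, hk, v0, hv⟩ : ∃ k ∈ Finset.range (p - 1), ∃ v,
      l0 (ρ.asAlgebraHom (ee K p (-(k + 1))) v) ≠ 0 := by
    by_contra! c
    exact l1 (LinearMap.ext fun v => by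
      rw [← sum_ee ρ v, map_sum]; exact Finset.sum_eq_zero fun k hk => c k hk v)
  let Θ : V →ₗ[K] SL(2, ZMod p) → K :=
    LinearMap.pi fun g => l0 ∘ₗ ρ.asAlgebraHom (ee K p (-(k + 1))) ∘ₗ ρ g
  have t0 : ∀ v g, Θ v g = l0 (ρ.asAlgebraHom (ee K p (-(k + 1))) (ρ g v)) := fun _ _ => rfl
  have t1 : ∀ g v, Θ (ρ g v) = RR K p g (Θ v) := fun g v => funext fun x => by
    rw [RR_apply, t0, t0, map_mul, End.mul_apply]
  have t2 : Function.Injective Θ := LinearMap.ker_eq_bot.1 ((h _ fun g v hv => by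
    rw [Submodule.mem_comap, LinearMap.mem_ker, t1, LinearMap.mem_ker.1 hv, map_zero]).resolve_right
      fun c => hv (by simpa [t0] using congrFun (LinearMap.mem_ker.1 (c.ge (Submodule.mem_top (x := v0)))) 1))
  have t3 : ∀ h, ∀ f ∈ LinearMap.range Θ, RR K p h f ∈ LinearMap.range Θ := by
    rintro h _ ⟨v, rfl⟩; exact ⟨_, t1 h v⟩
  obtain ⟨v, v1, v2⟩ := (Submodule.ne_bot_iff _).1 fun c => n1 (Submodule.finrank_eq_zero.2 c)
  have v3 : ∀ a, ρ (uu a) v = v := fun a => by
    rw [← ZMod.natCast_zmod_val a, ← mul_one (a.val : ZMod p), ← uu_pow, map_pow]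
    induction a.val with
    | zero => rfl
    | succ n ih => rw [pow_succ', End.mul_apply, ih]; exact sub_eq_zero.1 v1
  obtain ⟨m, m1, m2⟩ := exists_top t3 (Finset.mem_range.1 hk) ((map_ne_zero_iff Θ t2).2 v2) ⟨v, rfl⟩
    (fun g a => by
      rw [t0, t0, ee_apply, ee_apply, map_neg, map_neg, map_sum, map_sum]
      refine congrArg _ (Finset.sum_congr rfl fun t _ => ?_)
      rw [map_smul, map_smul, ← End.mul_apply, ← map_mul, ← mul_assoc, tt_uu, mul_assoc, map_mul,
        End.mul_apply, l3, map_mul, End.mul_apply])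
    (fun g a => by rw [t0, t0, map_mul, End.mul_apply, v3])
    (fun g t => by
      rw [t0, t0, map_mul, End.mul_apply, ee_tt, map_smul, smul_eq_mul, Units.val_inv_eq_inv_val, map_inv₀,
        inv_zpow', neg_neg, ← Nat.cast_succ, zpow_natCast])
  refine ⟨Θ, t2, t1, m, m1, le_antisymm ?_ (PP_le h2 t3 m1 m2)⟩
  obtain ⟨w, hw⟩ := m2
  rw [LinearMap.range_eq_map, Submodule.map_le_iff_le_comap, top_le_iff]
  refine (h _ fun g v hv => ?_).resolve_left fun c => ?_
  · rw [Submodule.mem_comap, Submodule.mem_comap, t1]; exact RR_mem g hv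
  · have : w ∈ (PP K p m).comap Θ := by rw [Submodule.mem_comap, hw]; exact mon_mem le_rfl
    rw [c, Submodule.mem_bot] at this
    rw [this, map_zero] at hw
    have := congrFun hw (ww _)
    rw [mon_apply] at this
    simp [ww] at this

end CF.Sixth
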