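import Cfsg.Agent.Sixth.D2
import Cfsg.Agent.Sixth.D3
import Cfsg.Agent.Sixth.C3

/-! Defining characteristic: `dim V ≤ 4 dim C(c) + 2 dim C(u)`, and the conclusion for `SL₂(p)`. -/

set_option autoImplicit false
set_option linter.style.haveILetI false

namespace CF.Sixth

open Module MonoidAlgebra
open scoped MatrixGroups

variable {K V : Type*} [Field K] [AddCommGroup V] [Module K V] {p : ℕ} [hp : Fact p.Prime]
  [Algebra (ZMod p) K]

local notation "φ" => algebraMap (ZMod p) K

/-- lower unitriangular matrices -/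
def lo {F : Type*} [Field F] (y : F) : SL(2, F) := ⟨!![1, 0; y, 1], by simp [Matrix.det_fin_two]⟩

theorem lo0 {F : Type*} [Field F] (y : F) : lo y 1 0 = y := rfl

theorem lo1 {F : Type*} [Field F] (y : F) : lo y 1 1 = 1 := rfl

theorem indep {a b c d : K} (h1 : ∀ y : ZMod p, c * φ y + d ≠ 0) (h2 : a * d - b * c ≠ 0) {k : ℕ}
    (hk : k < p) : LinearIndependent K fun i : Fin (k + 1) =>
      (lf a b ^ i.1 * lf c d ^ (k - i) : SL(2, ZMod p) → K) := by
  classical
  refine Fintype.linearIndependent_iff.2 fun x hx i => ?_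
  let P : Polynomial K := ∑ i : Fin (k + 1), Polynomial.monomial i (x i)
  have h0 : P = 0 := by
    refine Polynomial.eq_zero_of_natDegree_lt_card_of_eval_eq_zero P
      (f := fun y : ZMod p => (a * φ y + b) / (c * φ y + d)) (fun y z h => ?_) (fun y => ?_) ?_
    · simp only [div_eq_div_iff (h1 y) (h1 z)] at h
      exact (algebraMap (ZMod p) K).injective (mul_left_cancel₀ h2 (by linear_combination h))
    · have := congrFun hx (lo y)
      simp only [Finset.sum_apply, Pi.smul_apply, Pi.mul_apply, Pi.pow_apply, lf, smul_eq_mul,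
        lo0, lo1, map_one, mul_one, Pi.zero_apply] at this
      refine mul_right_cancel₀ (pow_ne_zero k (h1 y)) ?_
      rw [zero_mul, ← this]
      simp only [P, Polynomial.eval_finsetSum, Polynomial.eval_monomial, Finset.sum_mul]
      refine Finset.sum_congr rfl fun i _ => ?_
      have := h1 y
      rw [pow_sub₀ _ this (Nat.le_of_lt_succ i.2), div_pow]
      field_simp
    · rw [ZMod.card]
      exact lt_of_le_of_lt (Polynomial.natDegree_sum_le_of_forall_le _ _ (n := k)
        fun u _ => (Polynomial.natDegree_monomial_le _).trans (Nat.le_of_lt_succ u.2)) hk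
  have := congrArg (fun Q => Polynomial.coeff Q i) h0
  simp only [P, Polynomial.finsetSum_coeff, Polynomial.coeff_monomial, Polynomial.coeff_zero] at this
  rwa [Finset.sum_eq_single i (fun u _ hu => if_neg fun c => hu (Fin.ext c)) (by simp), if_pos rfl] at this

theorem mon_ne (k i : ℕ) : (mon k i : SL(2, ZMod p) → K) ≠ 0 := fun h => by
  have := congrFun h (lo 1)
  rw [mon_apply, lo0, lo1] at this
  simp at this

theorem xx_pow_mon (h2 : 2 < p) {k i : ℕ} (hk : k < p) (r : ℕ) (h : i + r ≤ k) : ∃ c : K, c ≠ 0 ∧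
    ((RR K p).asAlgebraHom (xx K p) ^ r) (mon k i) = c • mon k (i + r) := by
  haveI : CharP K p := (Algebra.charP_iff (ZMod p) K p).1 inferInstance
  induction r with
  | zero => exact ⟨1, one_ne_zero, by simp⟩
  | succ r ih =>
    obtain ⟨c, c1, c2⟩ := ih (by omega)
    obtain ⟨j, rfl⟩ : ∃ j, k = i + r + (j + 1) := ⟨k - (i + r) - 1, by omega⟩
    refine ⟨c * -(j + 1), mul_ne_zero c1 (neg_ne_zero.2 ?_), ?_⟩
    · rw [← Nat.cast_succ, Ne, CharP.cast_eq_zero_iff K p]
      exact Nat.not_dvd_of_pos_of_lt (by omega) (by omega)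
    · rw [pow_succ', End.mul_apply, c2, map_smul, xx_mon h2 (by omega), smul_smul, add_assoc i r 1]

variable (K p) in
/-- the norm of the element of order three -/
noncomputable def qq : K[SL(2, ZMod p)] := 1 + single (c0 _) 1 + single (c0 _) 1 * single (c0 _) 1

theorem lf_smul (t a b : K) : (lf (t * a) (t * b) : SL(2, ZMod p) → K) = t • lf a b := by
  funext g; simp only [lf, Pi.smul_apply, smul_eq_mul]; ring

theorem c0_lf {w : K} (hw : w ^ 2 + w + 1 = 0) {i j : ℕ} (h : (i + 2 * j) % 3 = 0) :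
    RR K p (c0 _) (lf 1 (-w) ^ i * lf 1 (-w ^ 2) ^ j) = lf 1 (-w) ^ i * lf 1 (-w ^ 2) ^ j := by
  have h3 : w ^ 3 = 1 := by linear_combination (w - 1) * hw
  have e1 := lf_smul (p := p) w 1 (-w)
  have e2 := lf_smul (p := p) (w ^ 2) 1 (-w ^ 2)
  rw [RR_lf]
  simp only [c0, Matrix.of_apply, Matrix.cons_val', Matrix.cons_val_zero, Matrix.cons_val_one,
    Matrix.cons_val_fin_one, map_one, map_zero, map_neg, mul_one, mul_zero, mul_neg, neg_neg, zero_add]
    at e1 e2 ⊢
  rw [show 1 + w = -(w * w) by linear_combination hw,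
    show 1 + w ^ 2 = -(w ^ 2 * w ^ 2) by linear_combination hw + w * h3, e1, e2, smul_pow, smul_pow,
    smul_mul_smul_comm, ← pow_mul, ← pow_add, ← Nat.div_add_mod (i + 2 * j) 3, h, add_zero, pow_mul, h3,
    one_pow, one_smul]

theorem ar (j : ℕ) (c : j ≠ 2) : 2 * j + 1 ≤ 4 * ((2 * j + 3 - 2 * (2 * j) % 3) / 3) := by
  rcases Nat.lt_or_ge j 5 with h | h
  · interval_cases j <;> simp_all
  · omega

set_option maxHeartbeats 800000 in
theorem simple_ineq [IsAlgClosed K] [FiniteDimensional K V] [Nontrivial V] (h3 : p % 3 = 2) (h11 : 11 ≤ p)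
    {ρ : Representation K SL(2, ZMod p) V} (h : Simp ρ) :
    3 * finrank K V ≤ 2 * rk (ρ.asAlgebraHom (1 - ee K p 3)) + 4 * rk (ρ.asAlgebraHom (qq K p)) +
      2 * rk (ρ.asAlgebraHom (xx K p ^ (p - 4) * ee K p 3)) +
      2 * rk (ρ.asAlgebraHom (xx K p * ee K p (-1))) + rk (ρ.asAlgebraHom (xx K p * ee K p 2)) := by
  classical
  haveI : CharP K p := (Algebra.charP_iff (ZMod p) K p).1 inferInstance
  obtain ⟨Θ, t1, t2, k, hk, t3⟩ := exists_emb (by omega) h
  have n1 : finrank K V ≤ k + 1 := by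
    rw [← LinearMap.finrank_range_of_inj t1, t3]; exact finrank_PP k
  have key : ∀ (a : K[SL(2, ZMod p)]) {ι : Type} [Fintype ι] (v : ι → SL(2, ZMod p) → K),
      LinearIndependent K v → (∀ i, ∃ f ∈ PP K p k, (RR K p).asAlgebraHom a f = v i) →
      Fintype.card ι ≤ rk (ρ.asAlgebraHom a) := fun a ι _ v hv hi => by
    choose f f1 f2 using hi
    choose x hx using fun i => t3.ge (f1 i)
    refine LinearIndependent.fintype_card_le_finrank (b := fun i =>
      (⟨_, x i, rfl⟩ : LinearMap.range (ρ.asAlgebraHom a))) (.of_comp (Θ ∘ₗ Submodule.subtype _) ?_)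
    convert hv with i
    funext i
    exact (inter t2 a (x i)).trans (by rw [hx, f2])
  have k1 : ∀ (a : K[SL(2, ZMod p)]) {b c d e : K}, (∀ y : ZMod p, d * φ y + e ≠ 0) → b * e - c * d ≠ 0 →
      ∀ s : Finset ℕ, (∀ i ∈ s, i ≤ k ∧ ∃ f ∈ PP K p k,
        (RR K p).asAlgebraHom a f = lf b c ^ i * lf d e ^ (k - i)) → s.card ≤ rk (ρ.asAlgebraHom a) :=
    fun a b c d e h1 h2 s hs => by
      rw [← Fintype.card_coe]
      exact key a _ ((indep h1 h2 hk).comp (fun i : s => ⟨i, Nat.lt_succ_of_le (hs i i.2).1⟩)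
        fun i j e => Subtype.ext (congrArg Fin.val e)) fun i => (hs i i.2).2
  have k2 : ∀ (r i : ℕ) (j : ℤ), i + r ≤ k → ((p : ℤ) - 1) ∣ 2 * i - k - j →
      1 ≤ rk (ρ.asAlgebraHom (xx K p ^ r * ee K p j)) := fun r i j h1 h2 => by
    obtain ⟨c, c1, c2⟩ := xx_pow_mon (K := K) (by omega) hk r h1
    refine key _ (ι := Unit) (fun _ => c • mon k (i + r))
      (linearIndependent_unique_iff.2 (smul_ne_zero c1 (mon_ne k (i + r))))
      fun _ => ⟨_, mon_mem (i := i) (by omega), ?_⟩
    rw [map_mul, map_pow, End.mul_apply, ee_of_mem (mon_wt (by omega)), if_pos h2, c2]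
  have kA : ∀ s : Finset ℕ, (∀ i ∈ Finset.range (k + 1), ((p : ℤ) - 1) ∣ 2 * i - k - 3 → i ∈ s) →
      k + 1 ≤ rk (ρ.asAlgebraHom (1 - ee K p 3)) + s.card := fun s hs => by
    have := k1 (1 - ee K p 3) (b := 1) (c := 0) (d := 0) (e := 1) (by simp) (by simp)
      (Finset.range (k + 1) \ s) fun i hi => by
        rw [Finset.mem_sdiff] at hi
        have h1 := Nat.le_of_lt_succ (Finset.mem_range.1 hi.1)
        refine ⟨h1, _, mon_mem h1, ?_⟩
        rw [map_sub, map_one, LinearMap.sub_apply, ee_of_mem (mon_wt h1), if_neg fun c => hi.2 (hs i hi.1 c),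
          sub_zero]
        rfl
    have := Finset.le_card_sdiff s (Finset.range (k + 1))
    rw [Finset.card_range] at this
    omega
  have kQ : (k + 3 - 2 * k % 3) / 3 ≤ rk (ρ.asAlgebraHom (qq K p)) := by
    obtain ⟨w, hw⟩ : ∃ w : K, w ^ 2 + w + 1 = 0 := by
      obtain ⟨z, hz⟩ := IsAlgClosed.exists_root (Polynomial.X ^ 2 + Polynomial.X + 1 : Polynomial K)
        (by rw [show (Polynomial.X ^ 2 + Polynomial.X + 1 : Polynomial K).degree = 2 by compute_degree!]
            simp)
      exact ⟨z, by simpa using hz⟩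
    have c3 : (3 : K) ≠ 0 := fun c => by
      have := Nat.le_of_dvd (by norm_num) ((CharP.cast_eq_zero_iff K p 3).1 (by exact_mod_cast c))
      omega
    have := k1 (qq K p) (b := 1) (c := -w) (d := 1) (e := -w ^ 2) (fun y c => no_root h3 y
      ((algebraMap (ZMod p) K).injective (by
        rw [map_add, map_add, map_pow, map_one, map_zero, show φ y = w ^ 2 by linear_combination c]
        linear_combination (w ^ 2 - w + 1) * hw)))
      (fun c => c3 (by linear_combination (w ^ 2 - w) * c + (w ^ 2 - 3 * w + 3) * hw))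
      ((Finset.range ((k + 3 - 2 * k % 3) / 3)).image fun j => 2 * k % 3 + 3 * j) fun i hi => by
        obtain ⟨j, hj, rfl⟩ := Finset.mem_image.1 hi
        rw [Finset.mem_range] at hj
        have h1 : 2 * k % 3 + 3 * j ≤ k := by omega
        have h2 := lf_mem (p := p) 1 (-w) 1 (-w ^ 2) (2 * k % 3 + 3 * j) (k - (2 * k % 3 + 3 * j))
        rw [Nat.add_sub_cancel' h1] at h2
        refine ⟨h1, _, Submodule.smul_mem _ (3 : K)⁻¹ h2, ?_⟩
        have h4 := c0_lf (p := p) hw (i := 2 * k % 3 + 3 * j) (j := k - (2 * k % 3 + 3 * j)) (by omega)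
        simp only [qq, map_add, map_mul, map_one, Representation.asAlgebraHom_single_one, map_smul,
          LinearMap.add_apply, End.mul_apply, End.one_apply, h4]
        match_scalars
        field_simp
        norm_num
    rwa [Finset.card_image_of_injective _ fun a b h => by simpa using h, Finset.card_range] at this
  obtain ⟨m, hm⟩ : ∃ m, p = 2 * m + 1 := hp.out.odd_of_ne_two (by omega)
  have dv : ∀ i ∈ Finset.range (k + 1), ((p : ℤ) - 1) ∣ 2 * i - k - 3 →
      2 * i = k + 3 ∨ 2 * i + p = k + 4 := fun i hi ⟨t, ht⟩ => by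
    rw [Finset.mem_range] at hi
    have : t = 0 ∨ t = -1 := by
      have h1 : (-2 : ℤ) < t := by nlinarith
      have h2 : t < 1 := by nlinarith
      omega
    rcases this with rfl | rfl <;> omega
  rcases Nat.even_or_odd' k with ⟨j, rfl | rfl⟩
  · have a1 := kA ∅ fun i hi c => by have := dv i hi c; omega
    by_cases c : j = 2
    · have := k2 1 3 2 (by omega) (by simp [c])
      rw [pow_one] at this
      rw [Finset.card_empty] at a1
      omega
    · rw [Finset.card_empty] at a1
      have := ar j c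
      omega
  have a2 := k2 1 j (-1) (by omega) (by simp)
  rw [pow_one] at a2
  by_cases c : j = 0
  · have a1 := kA ∅ fun i hi c => by have := dv i hi c; rw [Finset.mem_range] at hi; omega
    rw [Finset.card_empty] at a1
    omega
  by_cases c1 : 2 * j + 5 < p
  · have a1 := kA {j + 2} fun i hi c => by have := dv i hi c; rw [Finset.mem_singleton]; omega
    rw [Finset.card_singleton] at a1
    omega
  · have a1 := kA {j + 2, j + 2 - m} fun i hi c => by
      have := dv i hi c; rw [Finset.mem_insert, Finset.mem_singleton]; omega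
    have a3 := Finset.card_le_two (a := j + 2) (b := j + 2 - m)
    have a4 := k2 (p - 4) (j + 2 - m) 3 (by omega) ⟨-1, by omega⟩
    omega

theorem dfn [IsAlgClosed K] [FiniteDimensional K V] (h3 : p % 3 = 2) (h11 : 11 ≤ p)
    (ρ : Representation K SL(2, ZMod p) V) : finrank K V ≤ 4 * fd ρ (c0 _) + 2 * fd ρ (uu 1) := by
  have h1 := reduce 3 ![2, 4, 2, 2, 1] ![1 - ee K p 3, qq K p, xx K p ^ (p - 4) * ee K p 3,
    xx K p * ee K p (-1), xx K p * ee K p 2] (fun V _ _ _ _ ρ h => by
      simpa [Fin.sum_univ_five, -map_mul, -map_sub] using simple_ineq h3 h11 h) V ρ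
  have h2 := borel ρ h11
  have h4 : rk (ρ.asAlgebraHom (qq K p)) ≤ fd ρ (c0 _) := rk_le_nl (by
    have : ρ (c0 _) ^ 3 = 1 := by rw [← map_pow, c0_pow, map_one]
    simp only [qq, map_add, map_mul, map_one, Representation.asAlgebraHom_single_one]
    rw [← sub_eq_zero.2 this]; noncomm_ring)
  have h5 : rk (ρ.asAlgebraHom (1 - ee K p 3)) ≤ nl (ρ.asAlgebraHom (ee K p 3)) := rk_le_nl (by
    ext v
    rw [map_sub, map_one, mul_sub, mul_one, LinearMap.sub_apply, End.mul_apply,
      ee_of_mem (ee_mem ρ 3 v), if_pos (by simp), sub_self]; rfl)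
  have h6 := rk_add_nl (ρ.asAlgebraHom (ee K p 3))
  simp only [Fin.sum_univ_five, Matrix.cons_val] at h1
  omega

omit [Algebra (ZMod p) K] in
theorem not_sm [FiniteDimensional K V] (h3 : p % 3 = 2) (h11 : 11 ≤ p) (hK : (3 : K) ≠ 0)
    (ρ : Representation K SL(2, ZMod p) V) : ¬ Sm ρ := fun h => by
  by_cases c : (p : K) = 0
  · haveI : CharP K p := (CharP.charP_iff_prime_eq_zero hp.out).2 c
    letI := ZMod.algebra (AlgebraicClosure K) p
    have h1 := dfn h3 h11 (bc (AlgebraicClosure K) ρ)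
    have h2 := h.bc (AlgebraicClosure K) _ (c0_ne (ZMod p))
    have h4 := h.bc (AlgebraicClosure K) _ (uu_ne (one_ne_zero' (ZMod p)))
    omega
  · exact not_sm_cross h3 h11 hK c ρ h

end CF.Sixth
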